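import Mathlib
import Cfsg.Agent.H42.FvDefs
import Cfsg.Agent.H50.E83Nact

/-! The action of the monomial subgroup on coordinates of the adjoint module. -/

set_option autoImplicit false

namespace Cfsg.Agent.H42.Fv

open Equiv Cfsg.Lie H37 H40 H34 H29 Module H50.E83
open scoped Matrix

namespace Na

theorem ind (P : V → Prop) (h0 : P 0) (ha : ∀ v w, P v → P w → P (v + w))
    (hs : ∀ (c : K) v, P v → P (c • v)) (he : ∀ r : Rt, P (eV chevE8 K r))
    (hh : ∀ r : Rt, P (hR chevE8 K r)) (v : V) : P v := by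
  rw [pi_eq_sum_univ' v]
  refine Finset.sum_induction _ P ha h0 fun j _ => hs _ _ ?_
  rcases j with i | r
  · have := hh (C8.R.simple i)
    rw [C8.simple_val, hR_simple C8.V.basic i.2, hV_eq_single] at this
    exact this
  · have := he r
    rw [eV_eq_single] at this
    exact this

theorem al_vadd (r : Rt) (v w : V) : al r (v + w) = al r v + al r w := by
  simp only [al, Pi.add_apply, add_mul, Finset.sum_add_distrib]

theorem al_zero (r : Rt) : al r (0 : V) = 0 := by
  simp only [al, Pi.zero_apply, zero_mul, Finset.sum_const_zero]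

theorem al_eV (r : Rt) (s : ℕ) : al r (eV chevE8 K s) = 0 := by
  simp only [al, eV, Sum.elim_inl, zero_mul, Finset.sum_const_zero]

theorem al_hR (r s : Rt) : al r (hR chevE8 K s) = ((C8.R.pair s r : ℤ) : K) := by
  rw [RS.pair_def, Int.cast_sum]
  refine Finset.sum_congr rfl fun i _ => ?_
  rw [C8.co_eq, C8.wt_eq, Int.cast_mul]
  rfl

theorem cp_add (v w : V) : cp (v + w) = cp v + cp w := by
  funext j
  rcases j with i | r
  · rfl
  · exact (add_zero _).symm

theorem cp_smul (c : K) (v : V) : cp (c • v) = c • cp v := by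
  funext j
  rcases j with i | r
  · rfl
  · exact (mul_zero c).symm

theorem cp_zero : cp (0 : V) = 0 := by
  funext j
  rcases j with i | r <;> rfl

theorem cp_eV (s : ℕ) : cp (eV chevE8 K s) = 0 := by
  funext j
  rcases j with i | r <;> rfl

theorem cp_hR (s : ℕ) : cp (hR chevE8 K s) = hR chevE8 K s := by
  funext j
  rcases j with i | r <;> rfl

theorem eV_inr (s u : Rt) : eV chevE8 K s (Sum.inr u) = if u = s then 1 else 0 := by
  simp only [eV, Sum.elim_inr, Fin.val_inj]

end Na

open Na in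
theorem nact2 : Nact2Stmt := by
  intro n hn
  obtain ⟨⟨c, hc⟩, hh⟩ := nact n hn
  have hW := P8.ν_mem n hn
  refine ⟨c, ind _ ?_ ?_ ?_ ?_ ?_⟩
  · refine ⟨fun r => ?_, fun r => ?_, ?_⟩
    · rw [map_zero, Pi.zero_apply, Pi.zero_apply, mul_zero]
    · rw [map_zero, al_zero, al_zero]
    · rw [map_zero, cp_zero, map_zero]
  · rintro v w ⟨v1, v2, v3⟩ ⟨w1, w2, w3⟩
    refine ⟨fun r => ?_, fun r => ?_, ?_⟩
    · rw [map_add, Pi.add_apply, Pi.add_apply, v1, w1, mul_add]
    · rw [map_add, al_vadd, al_vadd, v2, w2]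
    · rw [map_add, cp_add, cp_add, v3, w3, map_add]
  · rintro a v ⟨v1, v2, v3⟩
    refine ⟨fun r => ?_, fun r => ?_, ?_⟩
    · rw [map_smul, Pi.smul_apply, Pi.smul_apply, v1, smul_eq_mul, smul_eq_mul, mul_left_comm]
    · rw [map_smul, al_smul, al_smul, v2]
    · rw [map_smul, cp_smul, cp_smul, v3, map_smul]
  · intro s
    refine ⟨fun r => ?_, fun r => ?_, ?_⟩
    · rw [hc, Pi.smul_apply, eV_inr, eV_inr, smul_eq_mul]
      by_cases e : r = s
      · rw [if_pos e, if_pos (congrArg _ e), e]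
      · rw [if_neg e, if_neg fun e' => e ((P8.ν n).injective e'), mul_zero, mul_zero]
    · rw [hc, al_smul, al_eV, al_eV, mul_zero]
    · rw [hc, cp_smul, cp_eV, cp_eV, smul_zero, map_zero]
  · intro s
    refine ⟨fun r => ?_, fun r => ?_, ?_⟩
    · rw [hh]
      exact (mul_zero _).symm
    · rw [hh, al_hR, al_hR, C8.R.pair_W hW]
    · rw [cp_hR, hh, cp_hR]

end Cfsg.Agent.H42.Fv
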