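import Cfsg.Agent.H11.CyLp
import Cfsg.Agent.H16.IvSk

/-! Project CY, chapter LP: the torus and a swapping involution of a line group `L₂(p)`. -/

set_option autoImplicit false

namespace Cfsg.Agent.H11.Cy.Lp.Lc

open Subgroup MulAction Matrix
open Cfsg.Agent.H11.EL (Ex)
open scoped MatrixGroups

section M
variable {F : Type} [Field F]

theorem mv (a b : SL(2, F)) : (a * b).1 = a.1 * b.1 := rfl

def uh : Multiplicative F →* SL(2, F) where
  toFun t := ⟨!![1, t.toAdd; 0, 1], by simp [det_fin_two_of]⟩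
  map_one' := Subtype.ext (by
    change (!![1, 0; 0, 1] : Matrix (Fin 2) (Fin 2) F) = 1
    rw [one_fin_two])
  map_mul' s t := Subtype.ext (Eq.trans (by simp [add_comm]) (mv _ _).symm)

def dh : Fˣ →* SL(2, F) where
  toFun a := ⟨!![(a : F), 0; 0, ((a⁻¹ : Fˣ) : F)], by simp [det_fin_two_of]⟩
  map_one' := Subtype.ext (by
    change (!![((1 : Fˣ) : F), 0; 0, ((1⁻¹ : Fˣ) : F)] : Matrix (Fin 2) (Fin 2) F) = 1
    rw [one_fin_two]; simp)
  map_mul' s t := Subtype.ext (Eq.trans (by simp [mul_comm]) (mv _ _).symm)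

def wm : SL(2, F) := ⟨!![0, 1; -1, 0], by simp [det_fin_two_of]⟩

def u1 : SL(2, F) := uh (Multiplicative.ofAdd 1)

theorem uv (t : F) : (uh (Multiplicative.ofAdd t)).1 = !![1, t; 0, 1] := rfl
theorem u1v : (u1 : SL(2, F)).1 = !![1, 1; 0, 1] := rfl
theorem dv (a : Fˣ) : (dh a).1 = !![(a : F), 0; 0, ((a⁻¹ : Fˣ) : F)] := rfl
theorem wv : (wm : SL(2, F)).1 = !![0, 1; -1, 0] := rfl
theorem iv (m : SL(2, F)) : (m⁻¹).1 = !![m.1 1 1, -m.1 0 1; -m.1 1 0, m.1 0 0] := by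
  rw [Matrix.SpecialLinearGroup.SL2_inv_expl]; rfl

theorem u1_zpow (i : ℤ) : (u1 : SL(2, F)) ^ i = uh (Multiplicative.ofAdd (i : F)) := by
  rw [u1, ← map_zpow, ← ofAdd_zsmul, zsmul_one]

theorem cen (m : SL(2, F)) : m ∈ center SL(2, F) ↔ m.1 0 1 = 0 ∧ m.1 1 0 = 0 ∧ m.1 0 0 = m.1 1 1 := by
  rw [Matrix.SpecialLinearGroup.mem_center_iff]
  constructor
  · rintro ⟨r, -, e⟩
    have e' : scalar (Fin 2) r = m.1 := e
    rw [← e']
    simp
  · rintro ⟨h1, h2, h3⟩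
    have := m.2
    rw [det_fin_two, h1, ← h3] at this
    refine ⟨m.1 0 0, by simpa [pow_two] using this, ?_⟩
    ext i j
    fin_cases i <;> fin_cases j <;> simp [h1, h2, h3]

theorem d_u (a : Fˣ) (i : ℤ) (hi : (i : F) = (a : F) ^ 2) : dh a * u1 * (dh a)⁻¹ = u1 ^ i := by
  rw [u1_zpow, hi, mul_inv_eq_iff_eq_mul]
  refine Subtype.ext ?_
  rw [mv, mv, dv, u1v, uv]
  simp [pow_two]

theorem w_d (a : Fˣ) : wm * dh a * wm⁻¹ = (dh a)⁻¹ := by
  rw [← map_inv, mul_inv_eq_iff_eq_mul]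
  refine Subtype.ext ?_
  rw [mv, mv, dv, dv, wv]
  simp

theorem low (m : SL(2, F)) (k : ℤ) (h : ((u1 ^ k)⁻¹ * (m * u1 * m⁻¹)).1 1 0 = 0) : m.1 1 0 = 0 := by
  rw [← _root_.zpow_neg, u1_zpow, mv, mv, mv, iv, uv, u1v] at h
  have : m.1 1 0 * m.1 1 0 = 0 := by
    simp only [mul_apply, Fin.sum_univ_two, of_apply, cons_val', cons_val_zero, cons_val_one,
      cons_val_fin_one] at h
    linear_combination -h
  exact mul_self_eq_zero.1 this

theorem upp (m : SL(2, F)) (h : (wm⁻¹ * m * wm).1 1 0 = 0) : m.1 0 1 = 0 := by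
  rw [mv, mv, iv, wv] at h
  simp only [mul_apply, Fin.sum_univ_two, of_apply, cons_val', cons_val_zero, cons_val_one,
    cons_val_fin_one] at h
  linear_combination -h

theorem diag (m : SL(2, F)) (h1 : m.1 0 1 = 0) (h2 : m.1 1 0 = 0) : ∃ b, m = dh b := by
  have := m.2
  rw [det_fin_two, h1, zero_mul, sub_zero] at this
  refine ⟨⟨m.1 0 0, m.1 1 1, this, by rw [mul_comm, this]⟩, Subtype.ext ?_⟩
  change _ = !![m.1 0 0, 0; 0, m.1 1 1]
  rw [← h1]
  conv_rhs => rw [show !![m.1 0 0, m.1 0 1; m.1 0 1, m.1 1 1] = !![m.1 0 0, m.1 0 1; m.1 1 0, m.1 1 1] by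
    rw [h1, h2]]
  exact eta_fin_two _

end M

variable {G : Type} [Group G] {Ω : Type} [MulAction G Ω] {p : ℕ} {A : Ω → Subgroup G}
  {F : Type} [Field F] [Fintype F]

theorem core (h : St p A) (p2 : p ≠ 2) (hF : Fintype.card F = p) {x y : Ω} (φ : SL(2, F) →* G)
    (hr : φ.range = Fl A x y) (hk : ∀ m, φ m = 1 ↔ m ∈ center SL(2, F))
    (hx : A x = zpowers (φ u1)) (hy : φ wm • x = y) : ∃ f s, LC p A x y f s := by
  classical
  have : Fact p.Prime := ⟨h.pp⟩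
  have : CharP F p := charP_of_card_eq_prime hF
  obtain ⟨a, ha⟩ := IsCyclic.exists_generator (α := Fˣ)
  have oa : orderOf a = p - 1 := by
    rw [orderOf_eq_card_of_forall_mem_zpowers ha, Nat.card_units, Nat.card_eq_fintype_card, hF]
  obtain ⟨i, hi⟩ : ∃ i : ℤ, (i : F) = (a : F) ^ 2 := by
    obtain ⟨z, hz⟩ := (ZMod.ringEquivOfPrime F h.pp hF).surjective ((a : F) ^ 2)
    obtain ⟨i, rfl⟩ := ZMod.intCast_surjective z
    exact ⟨i, by rw [← hz, map_intCast]⟩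
  have mem : ∀ m, φ m ∈ Fl A x y := fun m => hr ▸ ⟨m, rfl⟩
  have u0 : φ u1 ≠ 1 := fun e => by simpa [u1v] using ((cen _).1 ((hk _).1 e)).1
  have ux : φ u1 ∈ A x := hx ▸ mem_zpowers _
  have fu : φ (dh a) * φ u1 * (φ (dh a))⁻¹ = φ u1 ^ i := by
    rw [← map_inv, ← map_mul, ← map_mul, d_u a i hi, map_zpow]
  have fx : φ (dh a) • x = x := by
    refine (h.semi x _ _ (fu ▸ zpow_mem ux i) (h.fix _ _ (h.eqv _ x _ ux))).resolve_left fun e => ?_
    exact u0 (by simpa using e)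
  have sf : φ wm * φ (dh a) * (φ wm)⁻¹ = (φ (dh a))⁻¹ := by
    rw [← map_inv, ← map_mul, ← map_mul, w_d, map_inv]
  have ss : φ wm * φ wm = 1 := by
    rw [← map_mul, hk, cen, mv, wv]
    simp
  have fy : φ (dh a) • y = y := by
    have := congrArg (fun g => g • φ wm • x) sf
    simp only [mul_smul, inv_smul_smul, fx] at this
    rw [hy] at this
    exact eq_inv_smul_iff.1 this
  have of : orderOf (φ (dh a)) = orderOf (a ^ 2) := by
    refine orderOf_eq_orderOf_iff.2 fun n => ?_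
    rw [← map_pow, ← map_pow, hk, cen, ← pow_mul, mul_comm, pow_mul, pow_two, mul_eq_one_iff_eq_inv,
      Units.ext_iff, dv]
    simp
  have up : ∀ m, φ m • x = x → m.1 1 0 = 0 := by
    intro m hm
    have h1 := h.eqv (φ m) x _ ux
    rw [hm, hx] at h1
    obtain ⟨k, hk'⟩ := mem_zpowers_iff.1 h1
    refine low m k ((cen _).1 ((hk _).1 ?_)).2.1
    rw [map_mul, map_mul, map_mul, map_inv, map_inv, map_zpow, hk', inv_mul_cancel]
  refine ⟨φ (dh a), φ wm, mem _, ⟨fx, fy⟩, ?_, ⟨i, fun v hv => ?_, fun n => ?_⟩, mem _, ?_, hy, ?_, sf,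
    fun g hg hH => ?_⟩
  · have h1 : p % 2 = 1 := h.pp.eq_two_or_odd.resolve_left p2
    rw [of, orderOf_pow, oa, Nat.gcd_eq_right (by omega)]
    omega
  · rw [hx] at hv
    obtain ⟨k, rfl⟩ := mem_zpowers_iff.1 hv
    rw [← conj_zpow, fu, ← _root_.zpow_mul, ← _root_.zpow_mul, mul_comm]
  · rw [of, orderOf_dvd_iff_pow_eq_one, ← CharP.intCast_eq_zero_iff F p, Units.ext_iff]
    push_cast
    rw [hi, sub_eq_zero]
  · exact orderOf_eq_prime (by rw [pow_two, ss]) fun e => by simpa [wv] using ((cen _).1 ((hk _).1 e)).1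
  · rw [← hy, ← mul_smul, ss, one_smul]
  · rw [← hr] at hg
    obtain ⟨m, rfl⟩ := hg
    have h2 : φ m • y = y := hH.2
    obtain ⟨b, rfl⟩ := diag m (upp m (up _ (by
      rw [map_mul, map_mul, map_inv, mul_smul, mul_smul, hy, h2, ← hy, inv_smul_smul]))) (up m hH.1)
    obtain ⟨k, rfl⟩ := mem_zpowers_iff.1 (ha b)
    exact mem_zpowers_iff.2 ⟨k, by rw [map_zpow, map_zpow]⟩

omit [Fintype F] in
theorem range_conj (φ : SL(2, F) →* G) {g : G} (hg : g ∈ φ.range) :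
    ((MulAut.conj g).toMonoidHom.comp φ).range = φ.range := by
  obtain ⟨l, rfl⟩ := hg
  ext v
  constructor
  · rintro ⟨m, rfl⟩
    exact ⟨l * m * l⁻¹, by simp⟩
  · rintro ⟨m, rfl⟩
    exact ⟨l⁻¹ * m * l, by simp [mul_assoc]⟩

theorem lc : LCStmt := by
  intro G _ _ Ω _ _ p A h l0 la x y hxy
  classical
  have : Fact p.Prime := ⟨h.pp⟩
  obtain ⟨⟨F, _, _, hF, ⟨e⟩⟩, -⟩ := l0.ty.2 x y hxy
  have : CharP F p := charP_of_card_eq_prime hF
  have H := la x y hxy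
  obtain ⟨φ, hr, hk⟩ : ∃ φ : SL(2, F) →* G, φ.range = Fl A x y ∧
      ∀ m, φ m = 1 ↔ m ∈ center SL(2, F) := by
    refine ⟨(Fl A x y).subtype.comp (e.symm.toMonoidHom.comp (QuotientGroup.mk' _)), ?_, fun m => ?_⟩
    · rw [MonoidHom.range_comp, MonoidHom.range_eq_top.2
        (e.symm.surjective.comp (QuotientGroup.mk'_surjective _)), ← MonoidHom.range_eq_map,
        range_subtype]
    · rw [← QuotientGroup.eq_one_iff]
      simp
  have u0 : φ u1 ≠ 1 := fun e => by simpa [u1v] using ((cen _).1 ((hk _).1 e)).1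
  have up : φ u1 ^ p = 1 := by
    rw [← map_pow, ← zpow_natCast, u1_zpow, Int.cast_natCast, CharP.cast_eq_zero]
    simp
  have cu : Nat.card (zpowers (φ u1)) = p := by rw [Nat.card_zpowers, orderOf_eq_prime up u0]
  -- Sylow
  obtain ⟨l, hl, hl1⟩ : ∃ l ∈ Fl A x y, A x = zpowers (l * φ u1 * l⁻¹) := by
    set L := Fl A x y
    have hL : Nat.card L = p * (Nat.card L / p) ∧ ¬ p ∣ Nat.card L / p := by
      have h1 : p ∣ Nat.card L := h.card x ▸ card_dvd_of_le (le_sup_left : A x ≤ L)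
      obtain ⟨c, hc⟩ := h1
      rw [hc, Nat.mul_div_cancel_left _ h.pp.pos]
      refine ⟨rfl, fun h2 => ?_⟩
      have h3 := H.card
      rw [hc, mul_left_comm, mul_right_inj' h.pp.ne_zero] at h3
      have h4 : p ∣ p ^ 2 - 1 := h3 ▸ h2.mul_left 2
      have h5 := (Nat.dvd_sub_iff_right (Nat.one_le_pow 2 p h.pp.pos) (dvd_pow_self p two_ne_zero)).1 h4
      exact h.pp.one_lt.ne' (Nat.dvd_one.1 h5)
    have S : ∀ B : Subgroup G, B ≤ L → Nat.card B = p →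
        ∃ P : Sylow p L, (P : Subgroup L) = B.subgroupOf L := by
      intro B hB cB
      have c1 : Nat.card (B.subgroupOf L) = p ^ 1 := by
        rw [pow_one, ← cB]; exact Nat.card_congr (subgroupOfEquivOfLe hB).toEquiv
      refine ⟨(IsPGroup.of_card c1).toSylow ?_, rfl⟩
      have := (B.subgroupOf L).card_mul_index
      rw [c1, pow_one, hL.1, mul_right_inj' h.pp.ne_zero] at this
      exact this ▸ hL.2
    have uL : φ u1 ∈ L := hr ▸ ⟨_, rfl⟩
    obtain ⟨P, hP⟩ := S (A x) le_sup_left (h.card x)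
    obtain ⟨P', hP'⟩ := S _ (zpowers_le.2 uL) cu
    obtain ⟨n, hn⟩ := MulAction.exists_smul_eq L P' P
    refine ⟨n, n.2, (eq_of_le_of_card_ge (zpowers_le.2 ?_) ?_).symm⟩
    · have h1 : (⟨φ u1, uL⟩ : L) ∈ (P' : Subgroup L) := hP' ▸ mem_subgroupOf.2 (mem_zpowers _)
      have h2 : n * ⟨φ u1, uL⟩ * n⁻¹ ∈ ((n • P' : Sylow p L) : Subgroup L) := by
        rw [Sylow.coe_subgroup_smul, Subgroup.mem_pointwise_smul_iff_inv_smul_mem]
        simpa [mul_assoc] using h1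
      rw [hn, hP] at h2
      exact mem_subgroupOf.1 h2
    · rw [h.card, Nat.card_zpowers, ← cu, Nat.card_zpowers]
      exact ((MulAut.conj (n : G)).orderOf_eq _).ge
  obtain ⟨ψ, hr, hk, hx⟩ : ∃ ψ : SL(2, F) →* G, ψ.range = Fl A x y ∧
      (∀ m, ψ m = 1 ↔ m ∈ center SL(2, F)) ∧ A x = zpowers (ψ u1) :=
    ⟨(MulAut.conj l).toMonoidHom.comp φ, (range_conj φ (hr ▸ hl)).trans hr,
      fun m => by rw [← hk]; simp, hl1⟩
  have wL : ψ wm ∈ Fl A x y := hr ▸ ⟨_, rfl⟩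
  have hz : ψ wm • x ∈ Ln A x y := (l0.mc.ep.nrm x y hxy _).1 (le_normalizer wL) x H.mx
  have hzx : ψ wm • x ≠ x := by
    intro e
    have h1 := h.eqv (ψ wm) x _ (hx ▸ mem_zpowers _)
    rw [e, hx] at h1
    obtain ⟨k, hk'⟩ := mem_zpowers_iff.1 h1
    have := low wm k ((cen _).1 ((hk _).1 (by
      rw [map_mul, map_mul, map_mul, map_inv, map_inv, map_zpow, hk', inv_mul_cancel]))).2.1
    simp [wv] at this
  obtain ⟨a, ha, ha1⟩ := H.reg x H.mx _ hz y H.my hzx hxy.symm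
  have aL : a ∈ Fl A x y := mem_sup_left ha
  refine core h l0.mc.p2 hF ((MulAut.conj a).toMonoidHom.comp ψ) ((range_conj ψ (hr ▸ aL)).trans hr)
    (fun m => by rw [← hk]; simp) ?_ ?_
  · rw [hx] at ha
    obtain ⟨k, rfl⟩ := mem_zpowers_iff.1 ha
    rw [hx]
    congr 1
    change _ = ψ u1 ^ k * ψ u1 * (ψ u1 ^ k)⁻¹
    group
  · change (a * ψ wm * a⁻¹) • x = y
    rw [mul_smul, mul_smul, h.fix x _ (inv_mem ha), ha1]

end Cfsg.Agent.H11.Cy.Lp.Lc
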