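import Cfsg.Agent.H50.E72Defs
import Cfsg.Agent.H29.ASE7
import Cfsg.Agent.H34.SSC

/-! Semisimple elements of `E₇(2)` and the fundamental alcove. -/

set_option autoImplicit false
set_option maxRecDepth 100000

namespace Cfsg.Agent.H50.E72.Alc

open Equiv Cfsg.Lie H37 H40 H34 H29 Module

theorem allAlc_of (ms : List ℕ) : ∀ (s : ℕ) (k : List ℕ → Bool),
    (∀ a, dotN a ms ≤ s → k a = true) → allAlc ms s k = true := by
  induction ms with
  | nil => exact fun s k h => h [] (Nat.zero_le s)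
  | cons m ms ih =>
    refine fun s k h => allAlc_cons.2 fun x hx => ih _ _ fun a ha => h (x :: a) ?_
    have := (Nat.mul_le_mul_right m (Nat.le_of_lt_succ hx)).trans (Nat.div_mul_le_self s m)
    change x * m + dotN a ms ≤ s
    omega

theorem dotZ_eq (n : ℕ) : ∀ (w : List ℤ) (a : List ℕ), w.length = n →
    dotZ w a = ∑ j : Fin n, w.getD j 0 * (a.getD j 0 : ℕ) := by
  induction n with
  | zero => intro w a h; rw [List.length_eq_zero_iff.1 h]; rfl
  | succ n ih =>
    rintro (_ | ⟨x, w⟩) a h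
    · simp at h
    · obtain _ | ⟨y, a⟩ := a
      · simp [dotZ]
      · rw [Fin.sum_univ_succ, dotZ, List.zipWith_cons_cons, List.sum_cons, ← dotZ,
          ih w a (Nat.succ_injective h)]
        rfl

theorem alc : AlcStmt := by
  intro g s ζ hs hζ hg
  have hs0 : s ≠ 0 := by rintro rfl; simp at hs
  obtain ⟨-, c, -, e2⟩ := (C7.semisimple_classes invE7 two_ne_zero (algebraMap (ZMod 2) K)
    (ZMod.card 2) (by decide) 2).2 g
      (hs.coprime_two_right.coprime_dvd_left (orderOf_dvd_of_pow_eq_one hg))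
  have t5 : C7.tg K c ^ s = 1 := by
    have := e2.pow s
    rwa [← map_pow _ g, hg, map_one, isConj_one_left] at this
  obtain ⟨f, hf⟩ := exists_lab (C := C7) hζ hs0 (Cert.tg_mem_H c) t5
  obtain ⟨w, hw, a, ha, hl, hr⟩ := hf.1.alc tabOKE7 (Nat.pos_of_ne_zero hs0) (by decide) _ th7
    (allAlc_of _ s (fun a => decide (dotN a [2, 2, 3, 4, 3, 2, 1] ≤ s)) fun _ h => decide_eq_true h)
  obtain ⟨n, hn, rfl⟩ := (C7.split K).exists_lift hw
  obtain ⟨-, d, hd, h1⟩ := (hf.conj hn).congr hζ (isAdd_vN C7 a) (hr.vN_eq (hf.1.comp hw))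
  refine ⟨a, d, hl, of_decide_eq_true ha, IsConj.trans ?_ e2, fun r => ?_, fun b => ?_⟩
  · rw [hd]
    exact isConj_iff.2 ⟨n, by group⟩
  · have k : ∀ r : Rt, (rcE7.getD r []).length = chevE7.rank := by decide +kernel
    rw [h1, dotZ_eq _ _ _ (k r)]
    simp only [vN, rc_eq C7 tabOKE7, gt]
  · have k : ∀ b : Fin 56, (dbT.getD b []).length = chevE7.rank := by decide +kernel
    have k2 : ∀ (b : Fin 56) (i : Fin chevE7.rank), 2 * wt b i =
        ∑ j : Fin chevE7.rank, gt dbT b j * chevE7.cartan i (chevE7.simple j) := by decide +kernel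
    have e : (2 : ℤ) • wt b = ∑ j : Fin chevE7.rank, gt dbT b j • wtD chevE7 (C7.R.simple j) := by
      funext i
      simp only [Finset.sum_apply, Pi.smul_apply, smul_eq_mul, k2, wtD, C7.simple_val]
    rw [← zpow_natCast, ← evw_smul, Nat.cast_ofNat, e, evw_sum, dotZ_eq _ _ _ (k b), ← prod_zpow_sum]
    refine Finset.prod_congr rfl fun j _ => ?_
    rw [evw_smul, ← torChar_eq_evw, h1, vN_simple, ← zpow_mul, mul_comm]
    rfl

end Cfsg.Agent.H50.E72.Alc
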