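import Cfsg.Agent.H50.E83Defs

/-! The trace on the skew matrices. -/

set_option autoImplicit false

namespace Cfsg.Agent.H95.E83T

open Module Cfsg.Agent.H50.E83
open scoped Matrix

theorem split {F W : Type} [Field F] [AddCommGroup W] [Module F W] [FiniteDimensional F W]
    (h2 : (2 : F) ≠ 0) (Z G : Module.End F W) (hz : Z * Z = 1) (hc : Z * G = G * Z) (c : F) :
    finrank F (G.eigenspace c) = finrank F (Z.eigenspace 1 ⊓ G.eigenspace c : Submodule F W) +
      finrank F (Z.eigenspace (-1) ⊓ G.eigenspace c : Submodule F W) := by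
  have zz : ∀ v, Z (Z v) = v := fun v => by rw [← Module.End.mul_apply, hz]; rfl
  have cz : ∀ v, G (Z v) = Z (G v) := fun v => by
    rw [← Module.End.mul_apply, ← hc, Module.End.mul_apply]
  have e1 : (Z.eigenspace 1 ⊓ G.eigenspace c) ⊔ (Z.eigenspace (-1) ⊓ G.eigenspace c) =
      G.eigenspace c := by
    refine le_antisymm (sup_le inf_le_right inf_le_right) fun v hv => ?_
    rw [Module.End.mem_eigenspace_iff] at hv
    have : v = (2 : F)⁻¹ • (v + Z v) + (2 : F)⁻¹ • (v - Z v) := by
      rw [← smul_add, add_add_sub_cancel, ← two_smul F v, smul_smul, inv_mul_cancel₀ h2, one_smul]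
    rw [this]
    refine Submodule.add_mem_sup (Submodule.smul_mem _ _ ⟨?_, ?_⟩) (Submodule.smul_mem _ _ ⟨?_, ?_⟩)
    · rw [SetLike.mem_coe, Module.End.mem_eigenspace_iff, map_add, zz, one_smul, add_comm]
    · rw [SetLike.mem_coe, Module.End.mem_eigenspace_iff, map_add, cz, hv, map_smul, smul_add]
    · rw [SetLike.mem_coe, Module.End.mem_eigenspace_iff, map_sub, zz, neg_one_smul, neg_sub]
    · rw [SetLike.mem_coe, Module.End.mem_eigenspace_iff, map_sub, cz, hv, map_smul, smul_sub]
  have e2 : (Z.eigenspace 1 ⊓ G.eigenspace c) ⊓ (Z.eigenspace (-1) ⊓ G.eigenspace c) = ⊥ := by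
    rw [eq_bot_iff]
    rintro v ⟨⟨h1, -⟩, h2', -⟩
    rw [SetLike.mem_coe, Module.End.mem_eigenspace_iff] at h1 h2'
    rw [h1, one_smul, neg_one_smul, eq_neg_iff_add_eq_zero, ← two_smul F v] at h2'
    exact (smul_eq_zero.1 h2').resolve_left h2
  have := Submodule.finrank_sup_add_finrank_inf_eq (Z.eigenspace 1 ⊓ G.eigenspace c)
    (Z.eigenspace (-1) ⊓ G.eigenspace c)
  rw [e1, e2, finrank_bot, add_zero] at this
  exact this

theorem two_ne : (2 : K) ≠ 0 := by
  intro h
  have h3 : ((3 : ℕ) : K) = 0 := CharP.cast_eq_zero K 3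
  have : (1 : K) = 0 := by
    push_cast at h3
    linear_combination h3 - h
  exact one_ne_zero this

theorem tskS : TskStmt := by
  intro z g ψ A zz R hc hA
  have hz : act z * act z = 1 := by rw [← map_mul, zz, map_one]
  have c1 : act z * act g = act g * act z := by rw [← map_mul, hc.eq, map_mul]
  have c2 : act z * act (g * z) = act (g * z) * act z := by
    rw [← map_mul, ← map_mul, ← mul_assoc, hc.eq]
  have s1 : ∀ c, mu g c = finrank K (eig z 1 ⊓ eig g c : Submodule K V) +
      finrank K (eig z (-1) ⊓ eig g c : Submodule K V) := split two_ne _ _ hz c1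
  have s2 : ∀ c, mu (g * z) c = finrank K (eig z 1 ⊓ eig (g * z) c : Submodule K V) +
      finrank K (eig z (-1) ⊓ eig (g * z) c : Submodule K V) := split two_ne _ _ hz c2
  have t1 : ∀ c, eig z 1 ⊓ eig (g * z) c = eig z 1 ⊓ eig g c := fun c => by
    ext v
    simp only [Submodule.mem_inf, mem_eig, map_mul, Module.End.mul_apply]
    refine and_congr_right fun h => ?_
    rw [h, one_smul]
  have t2 : ∀ c, eig z (-1) ⊓ eig (g * z) c = eig z (-1) ⊓ eig g (-c) := fun c => by
    ext v
    simp only [Submodule.mem_inf, mem_eig, map_mul, Module.End.mul_apply]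
    refine and_congr_right fun h => ?_
    rw [h, neg_one_smul, map_neg, neg_smul, neg_eq_iff_eq_neg]
  have k : ∀ c, finrank K (skE A c) = finrank K (eig z 1 ⊓ eig g c : Submodule K V) := fun c => by
    have e : skE A c = LinearMap.range (ψ.domRestrict (eig z 1 ⊓ eig g c)) := by
      rw [LinearMap.range_domRestrict]
      ext Y
      constructor
      · rintro ⟨h1, h2⟩
        obtain ⟨v, hv, rfl⟩ := R.2.1 Y h1
        refine ⟨v, ⟨hv, mem_eig.2 ?_⟩, rfl⟩
        have hv' : act g v ∈ eig z 1 := by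
          rw [mem_eig, ← Module.End.mul_apply, c1, Module.End.mul_apply, mem_eig.1 hv, map_smul]
        refine sub_eq_zero.1 (R.2.2.1 _ (sub_mem hv' (Submodule.smul_mem _ _ hv)) ?_)
        rw [map_sub, hA v hv, h2, map_smul, sub_self]
      · rintro ⟨v, ⟨h1, h2⟩, rfl⟩
        refine ⟨R.1 v, ?_⟩
        rw [← hA v h1, mem_eig.1 h2, map_smul]
    rw [e]
    refine LinearMap.finrank_range_of_inj ((injective_iff_map_eq_zero _).2 fun v hv => ?_)
    exact Subtype.ext (R.2.2.1 v v.2.1 hv)
  unfold tsk tau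
  rw [k, k, s1, s1, s2, s2, t1, t1, t2, t2, neg_neg]
  push_cast
  ring

end Cfsg.Agent.H95.E83T
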