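import Cfsg.Agent.H11.ElDefs
import Mathlib.Tactic

/-!
# The normaliser of `R × ⟨x⟩` in the odd case without inverting elements
-/

set_option autoImplicit false
open Subgroup

namespace Cfsg.Agent.H11.EL.N3r

universe u

variable {G : Type u} [Group G]

theorem comm_of_ct {L : Subgroup G} {k l : G} (hk : k ∈ Ct L) (hl : l ∈ L) : Commute k l :=
  ((mem_centralizer_iff.1 hk) l hl).symm

/-- products of an element of the centraliser and an element of a subgroup of `L` -/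
def prodS (L Y : Subgroup G) (hY : Y ≤ L) : Subgroup G where
  carrier := {g | ∃ k ∈ Ct L, ∃ y ∈ Y, g = k * y}
  one_mem' := ⟨1, one_mem _, 1, one_mem _, by simp⟩
  mul_mem' := by
    rintro _ _ ⟨k, hk, y, hy, rfl⟩ ⟨k', hk', y', hy', rfl⟩
    refine ⟨k * k', mul_mem hk hk', y * y', mul_mem hy hy', ?_⟩
    have := (comm_of_ct hk' (hY hy)).eq
    calc k * y * (k' * y') = k * (y * k') * y' := by group
      _ = k * (k' * y) * y' := by rw [this]
      _ = _ := by group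
  inv_mem' := by
    rintro _ ⟨k, hk, y, hy, rfl⟩
    refine ⟨k⁻¹, inv_mem hk, y⁻¹, inv_mem hy, ?_⟩
    rw [mul_inv_rev]
    exact (comm_of_ct (inv_mem hk) (hY (inv_mem hy))).eq.symm

theorem uniq {L : Subgroup G} (ctr : ∀ g ∈ L, g ∈ Ct L → g = 1) {k k' l l' : G}
    (hk : k ∈ Ct L) (hk' : k' ∈ Ct L) (hl : l ∈ L) (hl' : l' ∈ L) (h : k * l = k' * l') :
    l = l' := by
  have e : l' * l⁻¹ = k'⁻¹ * k := by
    calc l' * l⁻¹ = k'⁻¹ * (k' * l') * l⁻¹ := by group
      _ = k'⁻¹ * (k * l) * l⁻¹ := by rw [h]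
      _ = _ := by group
  have := ctr (l' * l⁻¹) (mul_mem hl' (inv_mem hl)) (e ▸ mul_mem (inv_mem hk') hk)
  exact (mul_inv_eq_one.1 this).symm

theorem inv_mem_L [Finite G] {L : Subgroup G} (ctr : ∀ g ∈ L, g ∈ Ct L → g = 1)
    (odd : Odd (Nat.card (Ct L))) {g k l : G} (hk : k ∈ Ct L) (hl : l ∈ L) (hg : g = k * l)
    (gg : g * g = 1) : g ∈ L := by
  have c := comm_of_ct hk hl
  have e : (k * k) * (l * l) = 1 * 1 := by
    rw [one_mul, ← gg, hg]
    calc k * k * (l * l) = k * (k * l) * l := by group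
      _ = k * (l * k) * l := by rw [c.eq]
      _ = _ := by group
  have h2 := uniq ctr (mul_mem hk hk) (one_mem _) (mul_mem hl hl) (one_mem _) e
  rw [h2, mul_one, mul_one] at e
  have hk1 : k = 1 := by
    have d1 : orderOf k ∣ 2 := orderOf_dvd_of_pow_eq_one (by rw [pow_two, e])
    have d2 : orderOf k ∣ Nat.card (Ct L) := Subgroup.orderOf_dvd_natCard _ hk
    have : orderOf k ∣ Nat.gcd 2 (Nat.card (Ct L)) := Nat.dvd_gcd d1 d2
    rw [(Nat.coprime_two_left.2 odd : Nat.gcd 2 _ = 1), Nat.dvd_one] at this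
    exact orderOf_eq_one_iff.1 this
  rw [hg, hk1, one_mul]; exact hl

theorem n3r (b : Base.{u}) : N3rStmt.{u} := by
  intro G _ _ D A B R x h hR hR0 hcen hx hx3
  have : Fact (Nat.Prime 3) := ⟨Nat.prime_three⟩
  have lp := h.ne.lp A h.hA B h.hB h.AB
  have la := b.la _ lp.iso
  have lb := b.lb _ lp.iso
  obtain ⟨f, s0, h1⟩ := b.lc1 A B lp
  have lt := b.lt A B f s0 lp (b.lc A B f s0 lp h1)
  have dec := lt.e1M h.e1
  have ti := h.ne.ti A h.hA B h.hB h.AB
  have odd := h.odd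
  generalize A ⊔ B = L at *
  by_cases hN : Nm (R ⊔ zpowers x) ≤ Nm L
  · exact Or.inl hN
  right
  obtain ⟨n, hnQ, hnM⟩ := SetLike.not_le_iff_exists.1 hN
  -- an element of order three in `R`
  obtain ⟨ρ, hρR, hρ3⟩ : ∃ ρ ∈ R, orderOf ρ = 3 := by
    have : Nontrivial R := (Subgroup.nontrivial_iff_ne_bot R).2 hR0
    obtain ⟨m, hm, hc⟩ := (hR.2.1.nontrivial_iff_card).1 inferInstance
    obtain ⟨r, hr⟩ := exists_prime_orderOf_dvd_card' (G := R) 3
      (by rw [hc]; exact dvd_pow_self _ hm.ne')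
    exact ⟨r, r.2, by rw [← hr, Subgroup.orderOf_coe]⟩
  have hρK : ρ ∈ Ct L := hR.1 hρR
  have hρ1 : ρ ≠ 1 := by
    rintro rfl
    simp at hρ3
  have hρp : ρ ^ 3 = 1 := by rw [← hρ3]; exact pow_orderOf_eq_one ρ
  have hxp : x ^ 3 = 1 := by rw [← hx3]; exact pow_orderOf_eq_one x
  have hzx : zpowers x ≤ L := by rwa [zpowers_le]
  have hQ : R ⊔ zpowers x ≤ prodS L (zpowers x) hzx := by
    refine sup_le (fun r hr => ⟨r, hR.1 hr, 1, one_mem _, by simp⟩)
      (fun y hy => ⟨1, one_mem _, y, hy, by simp⟩)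
  have hρ' : n * ρ * n⁻¹ ∈ R ⊔ zpowers x :=
    (mem_normalizer_iff.1 hnQ ρ).1 (le_sup_left (a := R) (b := zpowers x) hρR)
  obtain ⟨k, hk, y, hy, hky⟩ := hQ hρ'
  have hyL : y ∈ L := hzx hy
  have hyp : y ^ 3 = 1 := by
    obtain ⟨i, rfl⟩ := mem_zpowers_iff.1 hy
    rw [← zpow_natCast, ← zpow_mul, mul_comm, zpow_mul, zpow_natCast, hxp, one_zpow]
  have hy1 : y ≠ 1 := by
    rintro rfl
    exact hnM (ti ρ hρK hρ1 n (by rw [hky, mul_one]; exact hk))
  have hy3 : orderOf y = 3 := orderOf_eq_prime hyp hy1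
  have hkp : k ^ 3 = 1 := by
    have e : (k * y) ^ 3 = 1 := by rw [← hky, conj_pow, hρp]; simp
    rwa [(comm_of_ct hk hyL).mul_pow, hyp, mul_one] at e
  obtain ⟨s, hs, w, hw, hs2, hw2, hsy, hsw, hwy⟩ := lb.d12' y hyL hy3
  have hρe : ρ = n⁻¹ * (k * y) * n := by rw [← hky]; group
  -- conjugating back by `n`
  have toM : ∀ g : G, g * (k * y) * g⁻¹ ∈ zpowers (k * y) → n⁻¹ * g * n ∈ Nm L := by
    intro g hg
    refine ti ρ hρK hρ1 _ ?_
    obtain ⟨i, hi⟩ := mem_zpowers_iff.1 hg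
    have e : n⁻¹ * g * n * ρ * (n⁻¹ * g * n)⁻¹ = ρ ^ i := by
      calc n⁻¹ * g * n * ρ * (n⁻¹ * g * n)⁻¹ = n⁻¹ * (g * (n * ρ * n⁻¹) * g⁻¹) * n := by group
        _ = n⁻¹ * (n * ρ * n⁻¹) ^ i * n := by rw [hky, ← hi]
        _ = ρ ^ i := by rw [conj_zpow]; group
    rw [e]; exact zpow_mem hρK i
  have toL : ∀ g : G, orderOf g = 2 → g * (k * y) * g⁻¹ ∈ zpowers (k * y) → n⁻¹ * g * n ∈ L := by
    intro g g2 hg
    obtain ⟨k1, hk1, l1, hl1, e⟩ := dec _ (toM g hg)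
    refine inv_mem_L la.ctr odd hk1 hl1 e ?_
    have : g * g = 1 := by rw [← pow_two, ← g2]; exact pow_orderOf_eq_one g
    calc n⁻¹ * g * n * (n⁻¹ * g * n) = n⁻¹ * (g * g) * n := by group
      _ = 1 := by rw [this]; group
  by_cases hk1 : k = 1
  · exfalso
    subst hk1
    have hwL := toL w hw2 (by rw [one_mul, hwy]; exact inv_mem (mem_zpowers y))
    have c := (comm_of_ct hρK hwL).eq
    rw [hρe, one_mul] at c
    have c2 : y * w = w * y := by
      have : n⁻¹ * (y * w) * n = n⁻¹ * (w * y) * n := by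
        calc n⁻¹ * (y * w) * n = n⁻¹ * y * n * (n⁻¹ * w * n) := by group
          _ = n⁻¹ * w * n * (n⁻¹ * y * n) := c
          _ = _ := by group
      simpa using this
    have c3 : y = y⁻¹ := by rw [← hwy, ← c2]; group
    have c4 : y ^ 2 = 1 := by rw [pow_two]; nth_rewrite 1 [c3]; simp
    have := orderOf_dvd_of_pow_eq_one c4
    rw [hy3] at this
    omega
  have hk3 : orderOf k = 3 := orderOf_eq_prime hkp hk1
  have fixz : ∀ g : G, Commute g k → Commute g y → g * (k * y) * g⁻¹ ∈ zpowers (k * y) := by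
    intro g c1 c2
    rw [(c1.mul_right c2).eq, mul_inv_cancel_right]
    exact mem_zpowers _
  have hsL := toL s hs2 (fixz s (comm_of_ct hk hs).symm hsy)
  have hs2' : orderOf (n⁻¹ * s * n) = 2 := by
    rw [← hs2]
    have := (MulAut.conj n⁻¹).orderOf_eq s
    simpa using this
  have hT := lb.cC _ hsL hs2'
  have key : ∀ c : Ct L, ∃ l : (L ⊓ C1 (n⁻¹ * s * n) : Subgroup G), ∃ k1 ∈ Ct L,
      n⁻¹ * (c : G) * n = k1 * l := by
    intro c
    obtain ⟨k1, hk1, l1, hl1, e⟩ :=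
      dec _ (toM c (fixz c (hcen k hk hk3 c c.2) (comm_of_ct c.2 hyL)))
    refine ⟨⟨l1, hl1, ?_⟩, k1, hk1, e⟩
    have c1 : Commute (n⁻¹ * (c : G) * n) (n⁻¹ * s * n) := by
      have := (comm_of_ct c.2 hs).eq
      change _ = _
      calc n⁻¹ * (c : G) * n * (n⁻¹ * s * n) = n⁻¹ * ((c : G) * s) * n := by group
        _ = n⁻¹ * (s * (c : G)) * n := by rw [this]
        _ = _ := by group
    have c2 : Commute k1 (n⁻¹ * s * n) := comm_of_ct hk1 hsL
    have e2 : l1 = k1⁻¹ * (n⁻¹ * (c : G) * n) := by rw [e]; group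
    have c3 : Commute l1 (n⁻¹ * s * n) := by rw [e2]; exact c2.inv_left.mul_left c1
    exact mem_centralizer_singleton_iff.2 c3.eq
  choose ψ κ hκ hψ using key
  have hmul : ∀ c d : Ct L, ψ (c * d) = ψ c * ψ d := by
    intro c d
    apply Subtype.ext
    refine uniq la.ctr (hκ (c * d)) (mul_mem (hκ c) (hκ d)) (ψ (c * d)).2.1
      (mul_mem (ψ c).2.1 (ψ d).2.1) ?_
    have cm := (comm_of_ct (hκ d) (ψ c).2.1).eq
    rw [← hψ]
    calc n⁻¹ * ((c * d : Ct L) : G) * n = (n⁻¹ * (c : G) * n) * (n⁻¹ * (d : G) * n) := by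
          rw [Subgroup.coe_mul]; group
      _ = κ c * ((ψ c : G) * κ d) * ψ d := by rw [hψ c, hψ d]; group
      _ = κ c * (κ d * (ψ c : G)) * ψ d := by rw [cm]
      _ = _ := by rw [Subgroup.coe_mul]; group
  let φ : Ct L →* (L ⊓ C1 (n⁻¹ * s * n) : Subgroup G) := MonoidHom.mk' ψ hmul
  have hinj : Function.Injective φ := by
    rw [injective_iff_map_eq_one]
    intro c hc
    by_contra hc1
    have e := hψ c
    have hc' : ψ c = 1 := hc
    rw [hc', OneMemClass.coe_one, mul_one] at e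
    have hm := ti c c.2 (fun h0 => hc1 (Subtype.ext h0)) n⁻¹ (by rw [inv_inv, e]; exact hκ c)
    exact hnM (by simpa using inv_mem hm)
  have d12 := Subgroup.card_dvd_of_injective φ hinj
  rw [hT] at d12
  have d3 : 3 ∣ Nat.card (Ct L) := hρ3 ▸ Subgroup.orderOf_dvd_natCard _ hρK
  have le12 := Nat.le_of_dvd (by norm_num) d12
  obtain ⟨m, hm⟩ := odd
  obtain ⟨j, hj⟩ := d3
  have : Nat.card (Ct L) = 3 ∨ Nat.card (Ct L) = 9 := by omega
  rcases this with e | e
  · exact e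
  · rw [e] at d12; norm_num at d12

end Cfsg.Agent.H11.EL.N3r
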