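import Cfsg.Agent.H78.G40B

/-! Project L40G: the conjugates of `z` commuting with `z` in `PSp₆(3)`. -/

set_option autoImplicit false
set_option maxRecDepth 100000

namespace Cfsg.Agent.H78.G40.Fz2c

open Subgroup Matrix Cfsg.Agent.H46.L40

abbrev M6 := Matrix (Fin 3 ⊕ Fin 3) (Fin 3 ⊕ Fin 3) (ZMod 3)

def Gm (a b c d e f k : ZMod 3) : M6 :=
  fromBlocks !![a, b, 0; c, d, 0; 0, 0, k] !![0, e, 0; -e, 0, 0; 0, 0, 0]
    !![0, f, 0; -f, 0, 0; 0, 0, 0] !![a, c, 0; b, d, 0; 0, 0, k]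

def Pm (g : M6) (i j : Fin 3) (s : ZMod 3) : M6 := of fun r => Sum.elim
  ![-(1 + g) r (.inl i), (g - 1) r (.inl j), (1 : M6) r (.inl 2)]
  ![-(s * (1 + g) r (.inr i)), s * (g - 1) r (.inr j), (1 : M6) r (.inr 2)]

def zd : Fin 3 ⊕ Fin 3 → ZMod 3 := Sum.elim ![2, 2, 1] ![2, 2, 1]
def ad : Fin 3 ⊕ Fin 3 → ZMod 3 := Sum.elim ![1, 2, 2] ![1, 2, 2]

def Ok (g p : M6) : Prop :=
  p * J (Fin 3) (ZMod 3) * pᵀ = J (Fin 3) (ZMod 3) ∧ p * diagonal zd = diagonal zd * p ∧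
    g * p = p * diagonal ad

instance (g p : M6) : Decidable (Ok g p) := by unfold Ok; infer_instance

def Ky (a b : ZMod 3) : Prop := ∀ c d e f k : ZMod 3, trace (Gm a b c d e f k) = 1 →
    Gm a b c d e f k * Gm a b c d e f k = 1 → Gm a b c d e f k = diagonal zd ∨
      Ok (Gm a b c d e f k) (Pm (Gm a b c d e f k) 0 1 1) ∨
      Ok (Gm a b c d e f k) (Pm (Gm a b c d e f k) 1 0 1) ∨
      Ok (Gm a b c d e f k) (Pm (Gm a b c d e f k) 0 1 2)

instance (a b : ZMod 3) : Decidable (Ky a b) := by unfold Ky; infer_instance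

theorem k00 : Ky 0 0 := by decide +kernel
theorem k01 : Ky 0 1 := by decide +kernel
theorem k02 : Ky 0 2 := by decide +kernel
theorem k10 : Ky 1 0 := by decide +kernel
theorem k11 : Ky 1 1 := by decide +kernel
theorem k12 : Ky 1 2 := by decide +kernel
theorem k20 : Ky 2 0 := by decide +kernel
theorem k21 : Ky 2 1 := by decide +kernel
theorem k22 : Ky 2 2 := by decide +kernel

theorem key (a b : ZMod 3) : Ky a b := by
  have h : ∀ x : ZMod 3, x = 0 ∨ x = 1 ∨ x = 2 := by decide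
  rcases h a with rfl | rfl | rfl <;> rcases h b with rfl | rfl | rfl
  exacts [k00, k01, k02, k10, k11, k12, k20, k21, k22]

theorem shape (g : M6) (h1 : g * J (Fin 3) (ZMod 3) = J (Fin 3) (ZMod 3) * gᵀ)
    (h2 : g * diagonal zd = diagonal zd * g) : ∃ a b c d e f k, g = Gm a b c d e f k := by
  have k2 : ∀ i j, zd i ≠ zd j → g i j = 0 := by
    intro i j hij
    have := congrFun (congrFun h2 i) j
    rw [mul_diagonal, diagonal_mul, mul_comm, ← sub_eq_zero, ← sub_mul] at this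
    exact (mul_eq_zero.1 this).resolve_left (sub_ne_zero.2 hij.symm)
  obtain ⟨P, Q, R, S, rfl⟩ : ∃ P Q R S, g = fromBlocks P Q R S := ⟨_, _, _, _, (fromBlocks_toBlocks g).symm⟩
  simp only [J, fromBlocks_transpose, fromBlocks_multiply, Matrix.mul_zero, Matrix.mul_one, zero_add,
    Matrix.mul_neg, add_zero, Matrix.zero_mul, Matrix.neg_mul, Matrix.one_mul, fromBlocks_inj] at h1
  obtain ⟨q, -, rfl, r⟩ := h1
  have z3 : ∀ x : ZMod 3, (x = -x → x = 0) ∧ (-x = x → x = 0) := by decide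
  have q' : ∀ i j, Q i j = -Q j i := fun i j => congrFun (congrFun q i) j
  have r' : ∀ i j, -R i j = R j i := fun i j => congrFun (congrFun r i) j
  have q0 : ∀ i, Q i i = 0 := fun i => (z3 _).1 (q' i i)
  have r0 : ∀ i, R i i = 0 := fun i => (z3 _).2 (r' i i)
  have p02 : P 0 2 = 0 := k2 (.inl 0) (.inl 2) (by decide)
  have p12 : P 1 2 = 0 := k2 (.inl 1) (.inl 2) (by decide)
  have p20 : P 2 0 = 0 := k2 (.inl 2) (.inl 0) (by decide)
  have p21 : P 2 1 = 0 := k2 (.inl 2) (.inl 1) (by decide)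
  have q02 : Q 0 2 = 0 := k2 (.inl 0) (.inr 2) (by decide)
  have q12 : Q 1 2 = 0 := k2 (.inl 1) (.inr 2) (by decide)
  have q20 : Q 2 0 = 0 := k2 (.inl 2) (.inr 0) (by decide)
  have q21 : Q 2 1 = 0 := k2 (.inl 2) (.inr 1) (by decide)
  have r02 : R 0 2 = 0 := k2 (.inr 0) (.inl 2) (by decide)
  have r12 : R 1 2 = 0 := k2 (.inr 1) (.inl 2) (by decide)
  have r20 : R 2 0 = 0 := k2 (.inr 2) (.inl 0) (by decide)
  have r21 : R 2 1 = 0 := k2 (.inr 2) (.inl 1) (by decide)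
  refine ⟨P 0 0, P 0 1, P 1 0, P 1 1, Q 0 1, R 0 1, P 2 2, fromBlocks_inj.2 ⟨?_, ?_, ?_, ?_⟩⟩ <;>
    ext i j <;> fin_cases i <;> fin_cases j <;>
    simp [p02, p12, p20, p21, q02, q12, q20, q21, r02, r12, r20, r21, q0, r0, q' 1 0, r' 0 1]

theorem fz2c : Fz2cS := by
  intro x hx hc hne
  obtain ⟨c, rfl⟩ := isConj_iff.1 hx
  obtain ⟨h, rfl⟩ := QuotientGroup.mk'_surjective _ c
  have ez : (E2 z0).1 = diagonal zd := by decide +kernel
  have ea : (E2 a0).1 = diagonal ad := by decide +kernel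
  obtain ⟨g, hg⟩ : ∃ g : Sp6, g = h * E2 z0 * h⁻¹ := ⟨_, rfl⟩
  have e : mk2 h * e2 z0 * (mk2 h)⁻¹ = mk2 g := by rw [hg, map_mul, map_mul, map_inv]; rfl
  rw [e] at hc hne ⊢
  have tc : ∀ u v : Sp6, trace (u * v * u⁻¹).1 = trace v.1 := by
    intro u v
    change trace (u.1 * v.1 * (u⁻¹).1) = _
    rw [trace_mul_cycle, show (u⁻¹).1 * u.1 = 1 from congrArg Subtype.val (inv_mul_cancel u), one_mul]
  have tz : trace (E2 z0).1 = 1 := by rw [ez]; decide
  have gg : g * g = 1 := by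
    have : E2 z0 * E2 z0 = 1 := by rw [← map_mul, show z0 * z0 = 1 by decide +kernel, map_one]
    rw [hg, show h * E2 z0 * h⁻¹ * (h * E2 z0 * h⁻¹) = h * (E2 z0 * E2 z0) * h⁻¹ by group, this]
    group
  have gg' : g.1 * g.1 = 1 := congrArg Subtype.val gg
  have h2 : g.1 * diagonal zd = diagonal zd * g.1 := by
    have := (mk2_eq (g * E2 z0 * g⁻¹) (E2 z0)).1 (by
      rw [map_mul, map_mul, map_inv, mul_inv_eq_iff_eq_mul]; exact hc)
    rcases this with h3 | h3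
    · have h4 : g * E2 z0 = E2 z0 * g := mul_inv_eq_iff_eq_mul.1 (Subtype.ext h3)
      rw [← ez]
      exact congrArg Subtype.val h4
    · have h4 := tc g (E2 z0)
      rw [h3, trace_neg, tz] at h4
      exact absurd h4 (by decide)
  have h1 : g.1 * J (Fin 3) (ZMod 3) = J (Fin 3) (ZMod 3) * g.1ᵀ := by
    have h3 : g.1 * J (Fin 3) (ZMod 3) * g.1ᵀ = J (Fin 3) (ZMod 3) := g.2
    conv_lhs => rw [← h3]
    rw [← mul_assoc, ← mul_assoc, gg', one_mul]
  obtain ⟨a, b, c, d, e, f, k, hG⟩ := shape g.1 h1 h2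
  have fin : ∀ p, Ok g.1 p → ∃ p, p * e2 z0 = e2 z0 * p ∧ mk2 g = p * e2 a0 * p⁻¹ := by
    rintro p ⟨o1, o2, o3⟩
    refine ⟨mk2 ⟨p, o1⟩, ?_, ?_⟩
    · exact (map_mul mk2 _ _).symm.trans ((congrArg mk2 (Subtype.ext (by rw [← ez] at o2; exact o2))).trans
        (map_mul mk2 (E2 z0) ⟨p, o1⟩))
    · rw [eq_mul_inv_iff_mul_eq]
      exact (map_mul mk2 _ _).symm.trans ((congrArg mk2 (Subtype.ext (by rw [← ea] at o3; exact o3))).trans
        (map_mul mk2 ⟨p, o1⟩ (E2 a0)))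
  have := key a b c d e f k (by rw [← hG, hg, tc, tz]) (by rw [← hG, gg'])
  rw [← hG] at this
  rcases this with h3 | h3 | h3 | h3
  · exact absurd (congrArg mk2 (Subtype.ext (h3.trans ez.symm))) hne
  all_goals exact fin _ h3

end Cfsg.Agent.H78.G40.Fz2c
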