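import Mathlib
import Cfsg.Agent.H89.L27Defs

/-! The orthogonality bound inside the fixed space of the dihedral group of order eight. -/

set_option autoImplicit false

namespace Cfsg.Agent.H89.L27

open Module

namespace Fd

variable {F W : Type} [Field F] [AddCommGroup W] [Module F W]

theorem dim_le [FiniteDimensional F W] (B : LinearMap.BilinForm F W) (D A R : Submodule F W)
    (hD : ∀ v ∈ D, (∀ w ∈ D, B v w = 0) → v = 0) (hA : A ≤ D) (hR : R ≤ D)
    (ho : ∀ a ∈ A, ∀ r ∈ R, B a r = 0) : finrank F A + finrank F R ≤ finrank F D := by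
  have h := LinearMap.BilinForm.finrank_add_finrank_orthogonal' (B := B.restrict D)
    (A.comap D.subtype)
  have hk : (A.comap D.subtype ⊓ LinearMap.ker (B.restrict D) : Submodule F D) = ⊥ := by
    rw [eq_bot_iff]
    rintro v ⟨-, hv⟩
    have hv' : B.restrict D v = 0 := hv
    have : (v : W) = 0 := hD v v.2 fun w hw => by
      exact LinearMap.congr_fun hv' ⟨w, hw⟩
    simpa using this
  rw [hk, finrank_bot, add_zero, (Submodule.comapSubtypeEquivOfLe hA).finrank_eq] at h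
  have hle : R.comap D.subtype ≤ (B.restrict D).orthogonal (A.comap D.subtype) := by
    intro r hr
    rw [LinearMap.BilinForm.mem_orthogonal_iff]
    intro n hn
    exact ho n hn r hr
  have := Submodule.finrank_mono hle
  rw [(Submodule.comapSubtypeEquivOfLe hR).finrank_eq] at this
  omega

theorem g1 : ey ^ 4 = -1 := by decide
theorem g2 : es * es = -1 := by decide
theorem g3 : ey * es = -1 * (es * ey ^ 3) := by decide
theorem g4 : ev = ex ^ 2 * eu := by decide
theorem g5 : ex = (ex ^ 2) ^ 4 := by decide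

theorem tau_mem (ρ : S7 →* Module.End F W) (h1 : ρ (-1) = 1) (w : W) :
    tauD ρ w ∈ Fx ρ [ey, es] := by
  have a4 : ρ ey ^ 4 = 1 := by rw [← map_pow, g1, h1]
  have ss : ρ es * ρ es = 1 := by rw [← map_mul, g2, h1]
  have as : ρ ey * ρ es = ρ es * ρ ey ^ 3 := by
    rw [← map_mul, g3, map_mul, h1, one_mul, map_mul, map_pow]
  have aN : ρ ey * (1 + ρ ey + ρ ey ^ 2 + ρ ey ^ 3) = 1 + ρ ey + ρ ey ^ 2 + ρ ey ^ 3 := by
    have : ρ ey * (1 + ρ ey + ρ ey ^ 2 + ρ ey ^ 3) = ρ ey ^ 4 + ρ ey + ρ ey ^ 2 + ρ ey ^ 3 := by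
      noncomm_ring
    rw [this, a4]
  have a3N : ρ ey ^ 3 * (1 + ρ ey + ρ ey ^ 2 + ρ ey ^ 3) = 1 + ρ ey + ρ ey ^ 2 + ρ ey ^ 3 := by
    rw [pow_succ (ρ ey) 2, pow_two (ρ ey), mul_assoc, mul_assoc, ← pow_two, ← pow_succ, aN, aN, aN]
  have e1 : ρ ey * tauD ρ = tauD ρ := by
    rw [tauD, ← mul_assoc, mul_add (ρ ey) 1, mul_one, as, add_mul, aN, mul_assoc, a3N, add_mul,
      one_mul]
  have e2 : ρ es * tauD ρ = tauD ρ := by
    rw [tauD, ← mul_assoc, mul_add (ρ es) 1, mul_one, ss, add_comm (ρ es)]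
  rw [mem_Fx]
  intro g hg
  simp only [List.mem_cons, List.not_mem_nil, or_false] at hg
  rcases hg with rfl | rfl
  · exact LinearMap.congr_fun e1 w
  · exact LinearMap.congr_fun e2 w

theorem fix_pow (B : LinearMap.BilinForm F W) (ρ : S7 →* Module.End F W)
    (hB : ∀ g v w, B (ρ g v) (ρ g w) = B v w) {g : S7} {v : W} (hv : ρ g v = v) (n : ℕ) (w : W) :
    B v ((ρ g ^ n) w) = B v w := by
  induction n with
  | zero => simp
  | succ n ih =>
    rw [pow_succ', Module.End.mul_apply, ← ih, ← hB g v ((ρ g ^ n) w), hv]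

theorem B_tau (B : LinearMap.BilinForm F W) (ρ : S7 →* Module.End F W)
    (hB : ∀ g v w, B (ρ g v) (ρ g w) = B v w) {v : W} (hv : v ∈ Fx ρ [ey, es]) (w : W) :
    B v (tauD ρ w) = 8 * B v w := by
  have hy : ρ ey v = v := mem_Fx.1 hv ey (by simp)
  have hs : ρ es v = v := mem_Fx.1 hv es (by simp)
  have s1 : ∀ u, B v (ρ es u) = B v u := fun u => by simpa using fix_pow B ρ hB hs 1 u
  have y1 : ∀ u, B v (ρ ey u) = B v u := fun u => by simpa using fix_pow B ρ hB hy 1 u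
  rw [tauD, Module.End.mul_apply, LinearMap.add_apply, map_add, s1]
  simp only [LinearMap.add_apply, map_add, Module.End.one_apply, y1, fix_pow B ρ hB hy]
  ring

end Fd

open Fd in
theorem fd (fc : FcStmt) : FdStmt := by
  intro F W _ _ _ _ _ B ρ hsym hnd hB hN
  have h3 : (3 : F) = 0 := by exact_mod_cast CharP.cast_eq_zero F 3
  have h8 : ∀ t : F, 8 * t = 0 → t = 0 := fun t ht => by linear_combination (3 * t) * h3 - ht
  have h7 : ∀ t : F, 7 * t = 0 → t = 0 := fun t ht => by linear_combination ht - (2 * t) * h3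
  have le1 : Fx ρ [ey, es, ev] ≤ Fx ρ [ey, es] := fun v hv =>
    mem_Fx.2 fun g hg => mem_Fx.1 hv g (by simp at hg ⊢; tauto)
  have le2 : Fx ρ [ey, es, eu] ≤ Fx ρ [ey, es] := fun v hv =>
    mem_Fx.2 fun g hg => mem_Fx.1 hv g (by simp at hg ⊢; tauto)
  have hinf : Fx ρ [ey, es, ev] ⊓ Fx ρ [ey, es, eu] = ⊥ := by
    rw [eq_bot_iff]
    rintro z ⟨z1, z2⟩
    have hv : ρ ev z = z := mem_Fx.1 z1 ev (by simp)
    have hu : ρ eu z = z := mem_Fx.1 z2 eu (by simp)
    have hs : ρ es z = z := mem_Fx.1 z1 es (by simp)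
    rw [g4, map_mul, Module.End.mul_apply, hu] at hv
    have hx : ρ ex z = z := by
      rw [g5, map_pow]
      simp only [pow_succ, pow_zero, one_mul, Module.End.mul_apply] at hv ⊢
      simp only [hv]
    exact hN.2 z hs hx
  have orth : ∀ z, z ∈ Fx ρ [ey, es] → ρ ev z = z ∨ ρ eu z = z →
      ∀ r ∈ (Fx ρ [ex]).map (tauD ρ), B z r = 0 := by
    rintro z hz hz' _ ⟨w, hw, rfl⟩
    have hx : ρ ex w = w := mem_Fx.1 hw ex (by simp)
    have h0 := fc F W ρ hN z (mem_Fx.1 hz ey (by simp)) (mem_Fx.1 hz es (by simp)) hz'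
    have h1 : B w (∑ j ∈ Finset.range 7, (ρ ex ^ j) z) = 7 * B w z := by
      rw [map_sum]
      simp [fix_pow B ρ hB hx]
    rw [h0, map_zero] at h1
    rw [B_tau B ρ hB hz, hsym, h7 _ h1.symm, mul_zero]
  have key := dim_le B (Fx ρ [ey, es]) (Fx ρ [ey, es, ev] ⊔ Fx ρ [ey, es, eu])
    ((Fx ρ [ex]).map (tauD ρ))
    (fun v hv h0 => hnd v fun w => h8 _ (by rw [← B_tau B ρ hB hv]; exact h0 _ (tau_mem ρ hN.1 w)))
    (sup_le le1 le2) (by rintro _ ⟨w, -, rfl⟩; exact tau_mem ρ hN.1 w)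
    (by
      intro a ha r hr
      obtain ⟨z1, h1, z2, h2, rfl⟩ := Submodule.mem_sup.1 ha
      rw [map_add, LinearMap.add_apply, orth z1 (le1 h1) (Or.inl (mem_Fx.1 h1 ev (by simp))) r hr,
        orth z2 (le2 h2) (Or.inr (mem_Fx.1 h2 eu (by simp))) r hr, add_zero])
  have := Submodule.finrank_sup_add_finrank_inf_eq (Fx ρ [ey, es, ev]) (Fx ρ [ey, es, eu])
  rw [hinf, finrank_bot, add_zero] at this
  omega

end Cfsg.Agent.H89.L27
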