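import Cfsg.Agent.H50.L81Defs

/-! A bound for the dimension of the space of graded cocycles along a composition series. -/

set_option autoImplicit false

namespace Cfsg.Agent.H50.L81.Z1

open Equiv Cfsg.Lie H37 H40 H34 H29 Module H82 H50.SL2S Finset H50.E83
open scoped Matrix MatrixGroups

theorem rank_le {k A B : Type*} [Field k] [AddCommGroup A] [Module k A] [AddCommGroup B]
    [Module k B] [FiniteDimensional k A] (f : A →ₗ[k] B)
    {S S' : Submodule k A} {T : Submodule k B} [FiniteDimensional k T] (h1 : ∀ a ∈ S, f a ∈ T)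
    (h2 : ∀ a ∈ S, f a = 0 → a ∈ S') : finrank k S ≤ finrank k T + finrank k S' := by
  rw [← (f.domRestrict S).finrank_range_add_finrank_ker,
    ← Submodule.finrank_map_subtype_eq S (LinearMap.ker _)]
  refine add_le_add (Submodule.finrank_mono ?_) (Submodule.finrank_mono ?_)
  · rintro _ ⟨a, rfl⟩; exact h1 a a.2
  · rintro _ ⟨a, ha, rfl⟩; exact h2 a a.2 ha

section
variable {W : Type} [AddCommGroup W] [Module K W] {ρ : SL →* Module.End K W} {p : Par}
  {U : Submodule K W}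

theorem aop_mem (hU : Inv ρ U) (c : ℕ) {v : W} (hv : v ∈ U) : Aop ρ p c v ∈ U := by
  unfold Aop
  split_ifs
  · exact hv
  · rw [LinearMap.neg_apply, LinearMap.sum_apply]
    exact U.neg_mem (U.sum_mem fun t _ => U.smul_mem _ (hU _ v hv))

theorem aop_map {Φ : W →ₗ[K] (SL → K)} (h : ∀ g, ∀ v ∈ U, Φ (ρ g v) = reg g (Φ v)) (c : ℕ) {v : W}
    (hv : v ∈ U) : Φ (Aop ρ p c v) = Aop reg p c (Φ v) := by
  unfold Aop
  split_ifs
  · rfl
  · simp only [LinearMap.neg_apply, LinearMap.sum_apply, LinearMap.smul_apply, map_neg, map_sum,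
      map_smul, h _ v hv]
end

theorem z1 (coc : CocStmt) : Z1Stmt := by
  intro p W _ _ _ ρ _ U L h
  induction h with
  | nil =>
    rw [show Zg ρ p ⊥ = ⊥ from (Submodule.eq_bot_iff _).2 fun δ hδ => funext fun g => (hδ.1 g).1,
      finrank_bot]
    exact Nat.zero_le _
  | @cons U U' L r _ hs ih =>
    obtain ⟨hr, he, -, hi, Φ, h1, h2, h3⟩ := hs
    rw [List.map_cons, List.sum_cons]
    refine (rank_le (Φ.compLeft (Fin 4)) (S := Zg ρ p U') (T := Zg reg p (SP p r)) (S' := Zg ρ p U)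
      (fun δ hδ => ⟨fun i => ⟨?_, ?_⟩, fun i j => ?_, fun i => ?_⟩)
      fun δ hδ h0 => ⟨fun i => ⟨(h3 _ (hδ.1 i).1).1 (congrFun h0 i), (hδ.1 i).2⟩, hδ.2⟩).trans
      (add_le_add (coc p r hr he) ih)
    · rw [← h2]; exact Submodule.mem_map_of_mem (hδ.1 i).1
    · refine Module.End.mem_eigenspace_iff.2 ?_
      show reg (t0 p) (Φ (δ i)) = _ • Φ (δ i)
      rw [← h1 _ _ (hδ.1 i).1, Module.End.mem_eigenspace_iff.1 (hδ.1 i).2, map_smul]
    · show Aop reg p _ (Φ (δ j)) = Aop reg p _ (Φ (δ i))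
      rw [← aop_map h1 _ (hδ.1 j).1, ← aop_map h1 _ (hδ.1 i).1, hδ.2.1]
    · show Aop reg p _ (Aop reg p _ (Φ (δ i))) = 0
      rw [← aop_map h1 _ (hδ.1 i).1, ← aop_map h1 _ (aop_mem hi _ (hδ.1 i).1), hδ.2.2, map_zero]

end Cfsg.Agent.H50.L81.Z1
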