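import Cfsg.Agent.H54.O84Defs
import Cfsg.Agent.H52.FStar

/-! Extensions of the two classes of subgroups inside their normalisers. -/

set_option autoImplicit false

namespace Cfsg.Agent.H54.O84.FinC

universe u

section
variable {Γ : Type} [Group Γ]

theorem rel_cj (g : Γ) (X H : Subgroup Γ) :
    (X.map (MulAut.conj g).toMonoidHom).relIndex (H.map (MulAut.conj g).toMonoidHom) =
      X.relIndex H :=
  Subgroup.relIndex_map_map_of_injective _ _ (MulAut.conj g).injective

theorem nm_cj (g : Γ) (X : Subgroup Γ) :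
    (Subgroup.normalizer (X : Set Γ)).map (MulAut.conj g).toMonoidHom =
      Subgroup.normalizer ((X.map (MulAut.conj g).toMonoidHom : Subgroup Γ) : Set Γ) :=
  Subgroup.map_equiv_normalizer_eq X (MulAut.conj g)

theorem ct_cj (g : Γ) (X : Subgroup Γ) (h : Subgroup.centralizer (X : Set Γ) = ⊥) :
    Subgroup.centralizer ((X.map (MulAut.conj g).toMonoidHom : Subgroup Γ) : Set Γ) = ⊥ := by
  rw [eq_bot_iff]
  intro z hz
  have : g⁻¹ * z * g ∈ Subgroup.centralizer (X : Set Γ) := by
    rw [Subgroup.mem_centralizer_iff]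
    intro x hx
    have e := Subgroup.mem_centralizer_iff.1 hz (g * x * g⁻¹) ⟨x, hx, rfl⟩
    calc x * (g⁻¹ * z * g) = g⁻¹ * (g * x * g⁻¹ * z) * g := by group
      _ = g⁻¹ * (z * (g * x * g⁻¹)) * g := by rw [e]
      _ = _ := by group
  rw [h, Subgroup.mem_bot] at this
  rw [Subgroup.mem_bot]
  calc z = g * (g⁻¹ * z * g) * g⁻¹ := by group
    _ = 1 := by rw [this]; group

end

theorem finC (hA : FinAStmt) : FinCStmt.{u} := by
  intro Γ _ _ Ω _ Y T
  have hs : ∀ i, IsSimpleGroup (Y i) := fun i => by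
    obtain ⟨e⟩ := T.iso i
    have := T.simple
    exact e.isSimpleGroup
  have p1 : ∀ i j g, (Y i).map (MulAut.conj g).toMonoidHom = Y j → i = j := by
    intro i j g h
    have e := rel_cj g (Y i) (Subgroup.normalizer (Y i : Set Γ))
    rw [nm_cj, h, T.idx, T.idx] at e
    revert e
    fin_cases i <;> fin_cases j <;> simp [nI]
  refine ⟨p1, ?_, ?_, ?_⟩
  · intro i d H h1 h2 h3
    have e := hA Γ (Y i) H (hs i) (T.cent i) h1 h2
    obtain ⟨f⟩ := T.iso i
    refine ⟨?_, ?_⟩
    · rw [e]; exact ⟨(Subgroup.subgroupOfEquivOfLe h1).trans f⟩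
    · rw [e]; exact h3
  · rintro d H ⟨⟨f⟩, hd⟩
    have hn : (Cfsg.generalizedFittingSubgroup H).Normal := H52.fstar_normal
    obtain ⟨i, g, hg⟩ := T.conj ((Cfsg.generalizedFittingSubgroup H).map H.subtype)
      ⟨((Cfsg.generalizedFittingSubgroup H).equivMapOfInjective H.subtype
        H.subtype_injective).symm.trans f⟩
    have hle : (Cfsg.generalizedFittingSubgroup H).map H.subtype ≤ H := Subgroup.map_subtype_le _
    have hsub : ((Cfsg.generalizedFittingSubgroup H).map H.subtype).subgroupOf H =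
        Cfsg.generalizedFittingSubgroup H :=
      Subgroup.comap_map_eq_self_of_injective H.subtype_injective _
    have hN : H ≤ Subgroup.normalizer
        (((Cfsg.generalizedFittingSubgroup H).map H.subtype : Subgroup Γ) : Set Γ) :=
      (Subgroup.normal_subgroupOf_iff_le_normalizer hle).1 (by rw [hsub]; exact hn)
    refine ⟨i, g, ?_, ?_, ?_⟩
    · rw [← hg]; exact Subgroup.map_mono hle
    · rw [← hg, ← nm_cj]; exact Subgroup.map_mono hN
    · rw [← hg, rel_cj, Subgroup.relIndex, hsub, hd]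
  · intro i j H H' g h1 h2 h3 h4 hg
    have l1 : (Y i).map (MulAut.conj g).toMonoidHom ≤ H' := hg ▸ Subgroup.map_mono h1
    have l2 : H' ≤ Subgroup.normalizer
        (((Y i).map (MulAut.conj g).toMonoidHom : Subgroup Γ) : Set Γ) := by
      rw [← nm_cj, ← hg]; exact Subgroup.map_mono h2
    have s1 : IsSimpleGroup ((Y i).map (MulAut.conj g).toMonoidHom) := by
      have := hs i
      exact ((Y i).equivMapOfInjective _ (MulAut.conj g).injective).symm.isSimpleGroup
    have e1 := hA Γ _ H' s1 (ct_cj g _ (T.cent i)) l1 l2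
    have e2 := hA Γ _ H' (hs j) (T.cent j) h3 h4
    rw [e1, Subgroup.subgroupOf_inj, inf_eq_left.2 l1, inf_eq_left.2 h3] at e2
    exact p1 i j g e2

end Cfsg.Agent.H54.O84.FinC
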