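import Cfsg.Agent.H95.ES

/-!
Normal subsystems with prescribed automizer of `T`, and residual limits.
-/

set_option autoImplicit false
set_option linter.unusedSectionVars false
set_option linter.unusedVariables false

namespace Cfsg.Agent.H95

open Cfsg Cfsg.FusionSystem Cfsg.Agent.H97 Cfsg.Agent.H98 Cfsg.Agent.H96

theorem exists_normal_of_pSolvable {G : Type*} [Group G] [Finite G] {p : ℕ} [Fact p.Prime]
    {N B : Subgroup G} [N.Normal] (h : IsPSolvable p (G ⧸ N)) (hB : B.Normal) (hNB : N ≤ B)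
    (hne : ¬ B ≤ N) : ∃ K : Subgroup G, K.Normal ∧ N ≤ K ∧ K < B ∧
      ((∀ x ∈ B, (∃ k, x ^ p ^ k = 1) → x ∈ K) ∨ ∀ x ∈ B, Nat.Coprime (orderOf x) p → x ∈ K) := by
  obtain ⟨n, H, h0, hl, hm, hn, hi⟩ := h
  by_contra hc
  have key : ∀ i, B ≤ (H i).comap (QuotientGroup.mk' N) → B ≤ N := by
    intro i
    induction i using Fin.induction with
    | zero => rw [h0, MonoidHom.comap_bot, QuotientGroup.ker_mk']; exact id
    | succ i ih =>
      intro hle
      refine ih (by_contra fun hnot => hc ⟨B ⊓ (H i.castSucc).comap (QuotientGroup.mk' N),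
        Subgroup.normal_inf_normal _ _ (hK := (hn _).comap _), le_inf hNB fun x hx => by
          rw [Subgroup.mem_comap, QuotientGroup.mk'_apply, (QuotientGroup.eq_one_iff x).2 hx]
          exact Subgroup.one_mem _,
        lt_of_le_of_ne inf_le_left fun e => hnot (e ▸ inf_le_right), ?_⟩)
      have := hn i.castSucc
      have hpow : ∀ x ∈ B, (QuotientGroup.mk' N x) ^ (H i.castSucc).relIndex (H i.succ) ∈
          H i.castSucc := fun x hx =>
        ((H i.castSucc).subgroupOf (H i.succ)).pow_index_mem (g := ⟨_, hle hx⟩)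
      rcases hi i with ⟨m, e⟩ | c
      · refine Or.inr fun x hx c => ⟨hx, ?_⟩
        have h1 := hpow x hx
        rw [e] at h1
        obtain ⟨j, hj⟩ := exists_pow_eq_self_of_coprime
          ((coprime_orderOf_map (QuotientGroup.mk' N) c).symm.pow_left m)
        exact Subgroup.mem_comap.2 (hj ▸ Subgroup.pow_mem _ h1 j)
      · exact Or.inl fun x hx ⟨k, hk⟩ => ⟨hx, Subgroup.mem_comap.2 (mem_of_pow_mem_of_coprime (k := k)
          (by rw [← map_pow, hk, map_one]) c (hpow x hx))⟩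
  exact hne (key (Fin.last n) (by rw [hl]; exact le_top))

variable {Ω : Type*} [Group Ω] {S T : Subgroup Ω} {F : FusionSystem S} {E : FusionSystem T}
  {P Q R U X Y : Subgroup Ω} {f g : Ω → Ω} [Finite S] {p : ℕ} [Fact p.Prime]

theorem ext_rel_step (hS : IsPGroup p S) {L : FusionSystem U} (hL : L.IsInvariantIn F)
    {D G : FusionSystem R} (hD : D.IsSaturated p) (hDF : D.IsSubsystemOf F) (hUR : U ≤ R)
    (hDG : D.IsSubsystemOf G)
    (hp : ∀ Y, Y ≤ U → ∀ δ ∈ F.autGroup Y, (∃ k, δ ^ p ^ k = 1) → Mor G Y (ext δ))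
    (hQ : L.IsCentric Q) (hQY : Q ≤ Y) (hY : Y ≤ normalizerIn U Q) (hf : Mor F Y f)
    (h : Mor D Q f) : Mor G Y f := by
  have hU := inv_stronglyClosed hL
  have hRS := le_of_isSubsystemOf hDF
  have := finite_of_le_S hRS
  have hYU := hY.trans H97.normalizerIn_le
  have := finite_of_le_S hf.le
  obtain ⟨Q', ψ, hQ', hψ, hiso, -⟩ := sat_exists_normalizer_map (hS.to_le hRS) hD h.img_le
  have hm : ∀ y ∈ Y, f y ∈ normalizerIn R (img Q f) := fun y hy =>
    ⟨hUR (mem_of_stronglyClosed hU hf hy (hYU hy)), hf.mem_normalizer_img hQY hy (hY hy).2⟩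
  have h1 : Mor F Y (fun x => ψ (f x)) := hf.comp (hψ.of_sub hDF) hm
  have h1U : ∀ y ∈ Y, ψ (f y) ∈ U := fun y hy => mem_of_stronglyClosed hU h1 hy (hYU hy)
  obtain ⟨g, hg, eg⟩ := (isReceptive_iff.1 (receptive_of_fullyNormalized (hS.to_le hRS) hD hQ')).2
    Q _ (h.comp_img hiso.mor) (by rw [← h.img_img, hiso.img_eq])
  have hg' := hg.mono (Q := Y) fun y hy => ⟨hUR (hYU hy), (hY hy).2, _, hUR (h1U y hy), fun x hx =>
    h1.map_conj hy (hQY hx)⟩
  have hc : ∀ y ∈ Y, (ψ (f y))⁻¹ * g y ∈ img Q (fun x => ψ (f x)) := fun y hy =>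
    centralizerIn_le_of_isCentric (inv_isCentric_img hL hQ (h1.mono hQY)) (mem_centralizerIn_conj.2
      ⟨U.mul_mem (U.inv_mem (h1U y hy)) (mem_of_stronglyClosed hU (hg'.of_sub hDF) hy (hYU hy)),
        fun z hz => by
          obtain ⟨x, hx, rfl⟩ := (h1.mem_img' hQY).1 hz
          refine conj_eq_of_conj_eq ?_
          rw [← h1.map_conj hy (hQY hx), ← eg _ (H96.conj_mem_of_mem_normalizer (hY hy).2 hx),
            hg'.map_conj hy (hQY hx), eg x hx]⟩)
  obtain ⟨k, hk, i1, i2, i3, -⟩ := h1.inv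
  have hgm : ∀ y ∈ Y, g y ∈ img Y (fun x => ψ (f x)) := fun y hy =>
    mem_of_inv_mul_mem (mem_img_of_mem (fun x => ψ (f x)) hy) (img_mono _ hQY (hc y hy))
  obtain ⟨δ, hδ, eδ⟩ := Mor.aut_of_mapsTo ((hg'.of_sub hDF).comp hk hgm) le_rfl
    fun y hy => i2 _ (hgm y hy)
  have e1 : ∀ y ∈ Y, ψ (f (ext δ y)) = g y := fun y hy => by rw [eδ y hy]; exact i3 _ (hgm y hy)
  have hδp : δ⁻¹ ∈ fixK Y Q ⊓ modK Y Q := Subgroup.inv_mem _ ⟨fun x hx hxQ => by
    rw [eδ x hx, eg x hxQ]; exact i1 x hx, fun y hy => by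
      refine (h1.mem_img_iff hQY (Y.mul_mem (Y.inv_mem hy) (ext_mem _ hy))).1 ?_
      rw [h1.map_mul (Y.inv_mem hy) (ext_mem _ hy), h1.map_inv hy, e1 y hy]
      exact hc y hy⟩
  obtain ⟨m, hm'⟩ := isPGroup_fixK_inf_modK (hS.to_le hf.le) Q ⟨_, hδp⟩
  obtain ⟨ψ', hψ', j1, -⟩ := hψ.inv
  have h2 := ((hp Y hYU _ (Subgroup.inv_mem _ hδ) ⟨m, congrArg Subtype.val hm'⟩).comp
    (hg'.of_sub hDG) fun y hy => ext_mem _ hy).congr (g := fun y => ψ (f y)) fun y hy => by
      rw [← e1 _ (ext_mem _ hy), ext_ext_inv]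
  exact (h2.comp (hψ'.of_sub hDG) fun y hy => mem_img_of_mem ψ (hm y hy)).congr
    fun y hy => j1 _ (hm y hy)

theorem ext_rel (hS : IsPGroup p S) {L : FusionSystem U} (hL : L.IsInvariantIn F)
    {D G : FusionSystem R} (hD : D.IsSaturated p) (hDF : D.IsSubsystemOf F) (hUR : U ≤ R)
    (hDG : D.IsSubsystemOf G)
    (hp : ∀ Y, Y ≤ U → ∀ δ ∈ F.autGroup Y, (∃ k, δ ^ p ^ k = 1) → Mor G Y (ext δ))
    (hG : ∀ P f, Mor G P f → ∃ α ∈ F.autGroup R, α ∈ G.autGroup R ∧
      Mor D P (fun x => ext α⁻¹ (f x)))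
    (hQ : L.IsCentric Q) (hQY : Q ≤ Y) (hY : Y ≤ U) (hf : Mor F Y f) (h : Mor G Q f) :
    Mor G Y f := by
  have hU := inv_stronglyClosed hL
  refine induction_down (S := S) (fun Q => L.IsCentric Q → Q ≤ Y → Mor G Q f → Mor G Y f)
    (fun Q hQS ih hQ hQY h => ?_) Q (hQY.trans hf.le) hQ hQY h
  rcases hQY.eq_or_lt with rfl | hlt
  · exact h
  have h1 := H95.lt_inf_normalizer hS hlt hf.le
  have hN := hf.mono (inf_le_left : Y ⊓ Subgroup.normalizer (Q : Set Ω) ≤ Y)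
  obtain ⟨α, hα, hα', h2⟩ := hG Q f h
  have hm : ∀ y ∈ Y ⊓ Subgroup.normalizer (Q : Set Ω), f y ∈ R := fun y hy =>
    hUR (mem_of_stronglyClosed hU hf hy.1 (hY hy.1))
  have h3 := ext_rel_step hS hL hD hDF hUR hDG hp hQ h1.le (inf_le_inf_right _ hY)
    (hN.comp (mor_of_mem_autGroup (le_of_isSubsystemOf hDF) (Subgroup.inv_mem _ hα)) hm) h2
  exact ih _ hN.le (card_lt_of_lt h1 hN.le) (isCentric_of_le hQ h1.le (inf_le_left.trans hY))
    inf_le_left ((h3.comp (mor_of_mem_autGroup le_rfl hα') fun y hy => ext_mem _ (hm y hy)).congr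
      fun y _ => ext_ext_inv _ _)

/-- `O^{p'}` of a weakly normal subsystem lies in every saturated subsystem of index prime to `p`. -/
theorem opPrime_le_of_pElts (hS : IsPGroup p S) (hF : F.IsSaturated p) [Finite T]
    (hE : E.IsInvariantIn F) {D : FusionSystem S} (hD : D.IsSaturated p) (hDF : D.IsSubsystemOf F)
    (h : PElts F p D) : (opPrime E p).IsSubsystemOf D := by
  have hp := (hasPrimeToPIndexIn_iff.1 (hasPrimeToPIndexIn_of_pElts hS hF hDF h)).2
  have hM := isFusionPred_sub E T (Mor D) le_rfl (fun P f hf _ => ⟨hf.le, fun x hx => hf.mem hx⟩)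
    (fun P f g _ e h => h.congr e) (fun P t hP ht => mor_conj D (hP.trans (inv_le hE)) (inv_le hE ht))
    (fun P Q f g _ _ hm h1 h2 => h1.comp h2 hm) fun P Q f g hf _ i1 _ h => by
      obtain ⟨k, hk, j1, -⟩ := h.inv' hf.img_eq
      exact hk.congr fun y hy => by
        obtain ⟨x, hx, rfl⟩ := hf.surj y hy
        rw [j1 x hx, i1 x hx]
  refine isSubsystemOf_iff.2 fun P f hf => (hM.mor_toFS.1 (opPrime_le (D := hM.toFS)
    (fun P hP α hα hk => hM.mor_toFS.2 ⟨mor_of_mem_autGroup hP.1 hα,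
      hp P (hP.1.trans (inv_le hE)) α (autGroup_mono (inv_sub hE) hα) hk⟩)
    (fun P Q f hP hPQ hf h => hM.mor_toFS.2 ⟨hf, ?_⟩) hf)).2
  exact ext_rel hS hE hD hDF (inv_le hE) (fun _ => le_rfl)
    (fun Y hY => hp Y (hY.trans (inv_le hE)))
    (fun P f hf => ⟨1, Subgroup.one_mem _, Subgroup.one_mem _, hf.congr fun x _ => by simp⟩)
    hP hPQ hf.le (hf.of_sub (inv_sub hE)) (hM.mor_toFS.1 h).2

theorem isInvariantIn_of_sub (hS : IsPGroup p S) (hE : E.IsInvariantIn F) {D : FusionSystem R}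
    (hD : D.IsSaturated p) (hDF : D.IsSubsystemOf F) (hED : E.IsSubsystemOf D) :
    E.IsInvariantIn D := by
  have := finite_of_le_S (le_of_isSubsystemOf hDF)
  exact isInvariantIn_of_strongInv (hS.to_le (le_of_isSubsystemOf hDF)) hD hED
    (stronglyClosed_of_sub hDF (inv_stronglyClosed hE) (le_of_isSubsystemOf hED))
    fun P Q f g ψ hf hψ => inv_strong hE hf (hψ.of_sub hDF)

theorem isInvariantIn_mulFS (hE : E.IsInvariantIn F) {K : Subgroup (MulAut T)}
    (hK : K ≤ F.autGroup T) (hn : ∀ α ∈ F.autGroup T, ∀ κ ∈ K, α * κ * α⁻¹ ∈ K) :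
    (mulFS ((normalizes_of_inv hE).mono hK)).IsInvariantIn F := by
  refine isInvariantIn_iff.2 ⟨mulFS_sub _ (inv_sub hE) hK, inv_stronglyClosed hE,
    fun P f hf α hα => ?_, fun P f hP hf => ?_⟩
  · obtain ⟨κ, hκ, f₀, h0, e⟩ := mor_mulFS.1 hf
    refine mor_mulFS.2 ⟨_, hn α hα κ hκ, _, normalizes_of_inv hE α hα P f₀ h0, fun y hy => ?_⟩
    obtain ⟨x, hx, rfl⟩ := ((homOn_ext α).mono hf.le).mem_img.1 hy
    simp only [ext_mul, ext_inv_ext, e x hx]
  · obtain ⟨α, hα, f₀, h0, e⟩ := inv_frattini hE hf hP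
    exact ⟨α, hα, f₀, mor_mulFS_of_mor _ h0, e⟩

/-- The subsystem of index prime to `p` with a prescribed automizer of `T`. -/
theorem exists_pPrime_step (hS : IsPGroup p S) (hE : E.IsWeaklyNormalIn F p) {D : FusionSystem R}
    (hD : D.IsWeaklyNormalIn F p) (hED : E.IsSubsystemOf D) {K : Subgroup (MulAut T)}
    (hK : K ≤ D.autGroup T) (hn : ∀ α ∈ F.autGroup T, ∀ κ ∈ K, α * κ * α⁻¹ ∈ K)
    (hEK : E.autGroup T ≤ K) (hp : ∀ α ∈ D.autGroup T, (∃ k, α ^ p ^ k = 1) → α ∈ K) :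
    ∃ D₀ : FusionSystem R, D₀.IsNormalIn D p ∧ D₀.IsInvariantIn F ∧ E.IsSubsystemOf D₀ ∧
      PElts D p D₀ ∧ ∀ U f, T ≤ U → Mor D U f →
        (Mor D₀ U f ↔ ∃ κ ∈ K, ∀ x ∈ T, f x = ext κ x) := by
  have hI := hE.2.2
  have hDI := hD.2.2
  have hRS := inv_le hDI
  have := finite_of_le_S hRS
  have hR := hS.to_le hRS
  have hTR := le_of_isSubsystemOf hED
  have := finite_of_le_S hTR
  have hDF := inv_sub hDI
  have hID := isInvariantIn_of_sub hS hI hD.1 hDF hED
  have hT := inv_stronglyClosed hID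
  have hKF := hK.trans (autGroup_mono hDF)
  have hE' := isInvariantIn_mulFS hI hKF hn
  have hA' := autGroup_mulFS ((normalizes_of_inv hI).mono hKF) hEK
  have hEE' := sub_mulFS ((normalizes_of_inv hI).mono hKF)
  have hfac : ∀ P f, Mor (mulFS ((normalizes_of_inv hI).mono hKF)) P f → ∃ κ ∈ K,
      Mor E P (fun x => ext κ⁻¹ (f x)) := fun P f hf => by
    obtain ⟨κ, hκ, f₀, h0, e⟩ := mor_mulFS.1 hf
    exact ⟨κ, hκ, h0.congr fun x hx => by rw [e x hx, ext_inv_ext]⟩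
  have hE'D := mulFS_sub ((normalizes_of_inv hI).mono hKF) hED hK
  generalize mulFS ((normalizes_of_inv hI).mono hKF) = E' at hE' hA' hEE' hfac hE'D
  have hE'I := isInvariantIn_of_sub hS hE' hD.1 hDF hE'D
  have hpE : ∀ Y, Y ≤ T → ∀ δ ∈ D.autGroup Y, (∃ k, δ ^ p ^ k = 1) → Mor E' Y (ext δ) :=
    fun Y hY δ hδ ⟨k, hk⟩ => mor_of_pElement hR hD.1 hT (fun P f hP hf => inv_frattini hE'I hf hP)
      (fun α hα h => mor_of_mem_autGroup le_rfl (hA' ▸ hp α hα h)) hY hδ hk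
  have hext : ∀ {Q Y f}, E.IsCentric Q → Q ≤ Y → Mor D Y f → Mor E' Q f → Mor E' (Y ⊓ T) f :=
    fun hQ hQY hf h => ext_rel hR hID hE.1 hED le_rfl hEE' hpE (fun P f hf => by
      obtain ⟨κ, hκ, h⟩ := hfac P f hf
      exact ⟨κ, hK hκ, hA' ▸ hκ, h⟩) hQ (le_inf hQY hQ.1) inf_le_right (hf.mono inf_le_left) h
  have hM := isFusionPred_sub D R (fun P f => ∀ Q ≤ P, E.IsCentric Q → Mor E' Q f) le_rfl
    (fun P f hf _ => ⟨hf.le, fun x hx => hf.mem hx⟩)
    (fun P f g _ e h Q hQ hc => (h Q hQ hc).congr fun x hx => e x (hQ hx))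
    (fun P s hP hs Q hQ hc => by
      have hsn := le_normalizer_of_stronglyClosed hT hs
      obtain ⟨k, hk⟩ := isPGroup_autInducedBy hR ⟨_, conjAut_mem_autInducedBy hs hsn⟩
      exact ((hpE T le_rfl _ (conjAut_mem_autGroup D hTR hs hsn)
        ⟨k, congrArg Subtype.val hk⟩).mono hc.1).congr fun x hx => ext_conjAut _ (hc.1 hx))
    (fun P P' f g hf _ hm h1 h2 Q hQ hc => (h1 Q hQ hc).comp_img (h2 _
      (img_le_iff.2 fun x hx => hm x (hQ hx)) (inv_isCentric_img hID hc (hf.mono hQ))))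
    fun P P' f g hf hg i1 i2 h Q hQ hc => by
      have h1 := hg.mor.mono hQ
      obtain ⟨k, hk, j1, -⟩ := (h _ (img_le_iff.2 fun x hx => hg.mem x (hQ hx))
        (inv_isCentric_img hID hc h1)).inv' (Q := Q) (by
          rw [h1.img_img, img_congr fun x hx => i2 x (hQ hx), img_id])
      exact hk.congr fun y hy => by
        conv_lhs => rw [← i2 y (hQ hy)]
        exact j1 _ (mem_img_of_mem g hy)
  have hgen : ∀ {P f}, Mor D P f → E.IsCentric (P ⊓ T) → Mor E' (P ⊓ T) f →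
      Mor (genFS D fun P f => Mor D P f ∧ E.IsCentric (P ⊓ T) ∧ Mor E' (P ⊓ T) f) P f :=
    fun h1 h2 h3 => mor_genFS_of h1 ⟨h1, h2, h3⟩
  have hle : ∀ {P f}, Mor (genFS D fun P f => Mor D P f ∧ E.IsCentric (P ⊓ T) ∧ Mor E' (P ⊓ T) f) P f →
      ∀ Q ≤ P, E.IsCentric Q → Mor E' Q f := fun hf => (hM.mor_toFS.1 (genFS_le hM.toFS
        (fun P f h => hM.mor_toFS.2 ⟨h.1, fun Q hQ hc => h.2.2.mono (le_inf hQ hc.1)⟩) hf)).2
  have hA : Normalizes (F.autGroup R)
      (genFS D fun P f => Mor D P f ∧ E.IsCentric (P ⊓ T) ∧ Mor E' (P ⊓ T) f) :=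
    normalizes_genFS (fun P f h => h.1) fun α hα P f h => by
      have hmα := mor_of_mem_autGroup hRS hα
      have ei := img_inf_of_stronglyClosed (inv_stronglyClosed hI) (hmα.mono h.1.le)
      refine hgen (normalizes_of_inv hDI α hα P f h.1)
        (ei ▸ inv_isCentric_img hI h.2.1 (hmα.mono (inf_le_right.trans hTR))) ?_
      exact ei ▸ inv_strong hE' h.2.2 (hmα.mono hTR) le_rfl inf_le_right (fun x hx => h.2.2.mem hx)
        fun x _ => by simp
  have hgle : ∀ D' : FusionSystem R, (∀ P f, Mor D P f → E.IsCentric (P ⊓ T) → Mor E' (P ⊓ T) f →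
      Mor D' P f) → ∀ P f, Mor (genFS D fun P f => Mor D P f ∧ E.IsCentric (P ⊓ T) ∧
        Mor E' (P ⊓ T) f) P f → Mor D' P f := fun D' h P f hf =>
    genFS_le D' (fun P f h' => h P f h'.1 h'.2.1 h'.2.2) hf
  have h0D : (genFS D fun P f => Mor D P f ∧ E.IsCentric (P ⊓ T) ∧
      Mor E' (P ⊓ T) f).IsSubsystemOf D := isSubsystemOf_iff.2 fun _ _ => genFS_sub
  generalize (genFS D fun P f => Mor D P f ∧ E.IsCentric (P ⊓ T) ∧ Mor E' (P ⊓ T) f) = D₀
    at hgen hle hA hgle h0D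
  have hAD := hA.mono (autGroup_mono hDF)
  have hinv : D₀.IsInvariantIn D := by
    refine isInvariantIn_of_step hR hD.1 h0D (stronglyClosed_top D) hAD fun P hP hPn => ?_
    by_cases hc : E.IsCentric (P ⊓ T)
    · obtain ⟨t, ht, htP⟩ := SetLike.exists_of_lt (lt_normalizerIn hR hP)
      refine ⟨hM.toFS.autGroup P, fun α hα κ hκ => ?_, fun κ hκ hκ' => mor_mulFS_of_mor _
        (hgen (mor_of_mem_autGroup hP.le hκ') hc
          ((hM.mor_toFS.1 (mor_of_mem_autGroup hP.le hκ)).2 _ inf_le_left hc)), t, ht.1,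
        normalizerIn_le_NK_autGroup le_rfl hP.le ht, htP⟩
      obtain ⟨h1, h2⟩ := hM.mor_toFS.1 (mor_of_mem_autGroup hP.le hκ)
      refine mem_autGroup_of_mor (hM.mor_toFS.2 ⟨mor_of_mem_autGroup hP.le
        (conj_mem_self hα κ (mem_autGroup_of_mor h1)), fun Q hQ hQc => ?_⟩)
      have hmα := mor_of_mem_autGroup hP.le hα
      have h3 := h2 _ inf_le_left hc
      have h4 := inv_strong hE'I h3 (hmα.mono inf_le_left) inf_le_right le_rfl
        (fun x hx => ⟨ext_mem _ hx.1, h3.mem hx⟩) (g := ext (α * κ * α⁻¹)) fun x _ => by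
          rw [ext_mul, ext_mul, ext_inv_ext]
      rw [img_inf_of_stronglyClosed hT hmα, img_ext] at h4
      exact h4.mono (le_inf hQ hQc.1)
    · obtain ⟨t, ht, htn, htP⟩ := exists_of_not_isCentric_inf hR hD.1 hID hPn hc
      exact ⟨_, fixMod_conj_mem hT hP.le, fun κ hκ hκ' => mor_of_mem_autGroup hP.le
        (autInducedBy_le_autGroup _ hP.le le_rfl (fixMod_le_autInducedBy hR hT
          (sat_fullyAutomized hR hD.1 hPn) ⟨hκ', hκ⟩)), t, hTR ht.1,
        ⟨hTR ht.1, _, conjAut_mem_fixMod hT hP.le ht htn, fun x hx => ext_conjAut _ hx⟩, htP⟩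
  have hfr : ∀ P f, Mor D P f → ∃ α ∈ D.autGroup R, ∃ f₀, Mor D₀ P f₀ ∧
      ∀ x ∈ P, f x = ext α (f₀ x) := fun P f hf => inv_frattini hinv hf hf.le
  have hsat : D₀.IsSaturated p := by
    refine saturated_of_extClosed hR hD.1 h0D {P | E.IsCentric (P ⊓ T)} (fun P hP Q hc => ?_) hfr
      (fun P hP Q f hPQ hf h => hgen hf (isCentric_inf hP (inf_le_left.trans hPQ))
        (hext hP (inf_le_left.trans hPQ) hf (hle h _ inf_le_left hP)))
      (fun D' h => le_iff.2 (hgle D' fun P f h1 h2 h3 => h P h2 f (hgen h1 h2 h3)))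
      fun P hP hPn _ => ?_
    · obtain ⟨f, hf, rfl⟩ := isConj_iff.1 hc
      exact (img_inf_of_stronglyClosed hT hf ▸ inv_isCentric_img hID hP (hf.mono inf_le_left) :
        E.IsCentric (img P f ⊓ T))
    · obtain ⟨t, ht, htn, htP⟩ := exists_of_not_isCentric_inf hR hD.1 hID hPn hP
      have := finite_of_le_S hPn.1
      have := finite_mulAut hPn.1
      exact ⟨t, ⟨hTR ht.1, htn⟩, htP, le_OpAut
        (K := D.autGroup P ⊓ (fixK P (P ⊓ T) ⊓ modK P (P ⊓ T)))
        ((isPGroup_fixK_inf_modK (hR.to_le hPn.1) _).to_le inf_le_right) inf_le_left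
        (fun α hα => H96.mem_normalizer_of_conj_mem fun v hv =>
          ⟨conj_mem_self hα v hv.1, fixMod_conj_mem hT hPn.1 α hα v hv.2⟩)
        ⟨conjAut_mem_autGroup _ hPn.1 (hTR ht.1) htn, conjAut_mem_fixMod hT hPn.1 ht htn⟩⟩
  refine ⟨D₀, isNormalIn_of_centralizerIn_le ⟨hsat, hD.1, hinv⟩ centralizerIn_le,
    isInvariantIn_iff.2 ⟨fun P => (h0D P).trans (hDF P), inv_stronglyClosed hDI,
      fun P f hf α hα => hA α hα P f hf, fun P f hP hf => ?_⟩,
    sat_sub_of_coprime (hR.to_le hTR) hE.1 hTR fun Q hQ _ β hβ _ => ?_,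
    fun P hP δ hδ ⟨k, hk⟩ => pElement_of_frattini hR hD.1 hfr hP.1 hδ hk, fun U f hU hf =>
      ⟨fun h => ?_, fun ⟨κ, hκ, e⟩ => hgen hf (isCentric_inf (isCentric_top E) hU)
        (((mor_of_mem_autGroup le_rfl (hA' ▸ hκ)).congr fun x hx => (e x hx).symm).mono
          inf_le_right)⟩⟩
  · obtain ⟨α, hα, f₀, h0, e⟩ := inv_frattini hDI hf hP
    obtain ⟨β, hβ, f₁, h1, e'⟩ := hfr P f₀ h0
    exact ⟨α * β, Subgroup.mul_mem _ hα (autGroup_mono hDF hβ), f₁, h1, fun x hx => by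
      rw [e x hx, e' x hx, ext_mul]⟩
  · have h1 := mor_of_mem_autGroup hQ.1 hβ
    exact hgen (h1.of_sub hED) (isCentric_inf hQ le_rfl) ((h1.of_sub hEE').mono inf_le_left)
  · obtain ⟨κ, hκ, e⟩ := (hle h T hU (isCentric_top E)).exists_aut_top
    exact ⟨κ, hA' ▸ hκ, fun x hx => (e x hx).symm⟩

/-- If `K` is normal in `Aut_F(T)` of `p`-power index, `hyp(F)` acts on `T` inside `K`. -/
theorem hyp_le_NK (hS : IsPGroup p S) (hF : F.IsSaturated p) (hE : E.IsInvariantIn F)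
    {K : Subgroup (MulAut T)} (hn : ∀ α ∈ F.autGroup T, ∀ κ ∈ K, α * κ * α⁻¹ ∈ K)
    (hIK : Inn T ≤ K) (hq : ∀ α ∈ F.autGroup T, Nat.Coprime (orderOf α) p → α ∈ K) :
    F.hyperfocalSubgroup p ≤ NK S T K := by
  have hT := inv_stronglyClosed hE
  have hSn := le_normalizer_of_stronglyClosed hT
  have := finite_mulAut hT.1
  refine hyp_le_iff.2 fun P hP α hα c x hx => ?_
  obtain ⟨n, ν, hnm, hν, e⟩ := fr hS hF hE (mor_of_mem_autGroup hP hα)
  obtain ⟨a, ha, ea⟩ := (hν.mono le_sup_right).exists_aut_of_stronglyClosed hT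
  have hc : ∀ {s}, (hs : s ∈ S) → conjAut T (hSn hs) ∈ F.autGroup T := fun hs =>
    conjAut_mem_autGroup F hT.1 hs _
  have key : ∀ k : ℕ, ∀ x (hx : x ∈ P), (a ^ k * conjAut T (hSn (hP hx)) * (a ^ k)⁻¹)⁻¹ *
      conjAut T (hSn (hP (ext_mem (α ^ k) hx))) ∈ K := by
    intro k
    induction k with
    | zero => intro x hx; simp
    | succ k ih =>
      intro x hx
      have hy := ext_mem (α ^ k) hx
      have ht := hnm.modT hT _ hy
      have hνt := mem_of_stronglyClosed hT hν (Subgroup.mem_sup_right ht) ht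
      have h1 : conjAut T (hSn (hP (ext_mem (α ^ (k + 1)) hx))) =
          a * conjAut T (hSn (hP hy)) * a⁻¹ * conjAut T (Subgroup.le_normalizer hνt) :=
        aut_ext fun t ht' => by
          rw [ext_mul, ext_conj_conjAut hν.homOn le_sup_right (fun x hx => (ea x hx).symm)
            (Subgroup.mem_sup_left hy) _ (ext_mem _ ht'), ext_conjAut _ ht', ext_conjAut _ ht',
            pow_succ', ext_mul, e _ hy, hν.map_mul (Subgroup.inv_mem _ (Subgroup.mem_sup_left hy))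
              (hnm.mem_of_le hT le_sup_right hy (Subgroup.mem_sup_left hy)),
            hν.map_inv (Subgroup.mem_sup_left hy)]
          group
      have h2 := K.mul_mem (hn a ha _ (ih x hx))
        (hIK (mem_inn_iff.2 ⟨_, hνt, fun t ht => ext_conjAut (Subgroup.le_normalizer hνt) ht⟩))
      rw [h1]
      convert h2 using 1
      rw [pow_succ']
      group
  obtain ⟨i, j, e1, ⟨m, hm⟩, c1⟩ := exists_p_mul_p' (p := p) (isOfFinOrder_of_finite a)
  have h1 : a ^ p ^ m ∈ K := by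
    rw [e1, ((Commute.refl a).pow_pow i j).mul_pow, hm, one_mul]
    exact K.pow_mem (hq _ (Subgroup.pow_mem _ ha j) c1) _
  obtain ⟨l, hl⟩ := exists_pow_eq_self_of_coprime (c.symm.pow_left m)
  have h2 := key (p ^ m * l) x hx
  have h3 : a ^ (p ^ m * l) ∈ K := pow_mul a _ l ▸ K.pow_mem h1 l
  have h4 := K.mul_mem (K.mul_mem (hn _ (Subgroup.inv_mem _ (hc (hP hx))) _ h3) (K.inv_mem h3)) h2
  refine ⟨S.mul_mem (S.inv_mem (hP hx)) (hP (ext_mem _ hx)), _, h4, fun t ht => ?_⟩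
  rw [show (conjAut T (hSn (hP hx)))⁻¹ * a ^ (p ^ m * l) * (conjAut T (hSn (hP hx)))⁻¹⁻¹ *
    (a ^ (p ^ m * l))⁻¹ * ((a ^ (p ^ m * l) * conjAut T (hSn (hP hx)) * (a ^ (p ^ m * l))⁻¹)⁻¹ *
      conjAut T (hSn (hP (ext_mem (α ^ (p ^ m * l)) hx)))) = (conjAut T (hSn (hP hx)))⁻¹ *
        conjAut T (hSn (hP (ext_mem (α ^ (p ^ m * l)) hx))) by group, ext_mul,
    ext_conjAut_inv _ (ext_mem _ ht), ext_conjAut _ ht, pow_mul, hl]
  group

/-- `D` contains every weakly normal subsystem of `F` that is its own residual. -/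
def HasStable (F : FusionSystem S) (p : ℕ) (D : FusionSystem R) : Prop :=
  ∀ (V : Subgroup Ω) (L : FusionSystem V), L.IsInvariantIn F → L.hyperfocalSubgroup p = V →
    L.IsPPrimeResidual p L → L.IsSubsystemOf D

theorem HasStable.pIndex (hS : IsPGroup p S) {D : FusionSystem R} (h : HasStable F p D)
    (hDF : D.IsSubsystemOf F) {D' : FusionSystem U} (hD' : D'.HasPPowerIndexIn D p) :
    HasStable F p D' := fun V L h1 h2 h3 => by
  have := finite_of_le_S (le_of_isSubsystemOf hDF)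
  exact sub_of_pIndex (hS.to_le (le_of_isSubsystemOf hDF)) h3.1 (h V L h1 h2 h3) hD'
    (h2.ge.trans ((hyp_mono (h V L h1 h2 h3)).trans (pIndex_hyp_le hD')))

theorem HasStable.pElts (hS : IsPGroup p S) {D D' : FusionSystem R} (h : HasStable F p D)
    (hD : D.IsSaturated p) (hDF : D.IsSubsystemOf F) (hD' : D'.IsSaturated p)
    (hD'D : D'.IsSubsystemOf D) (hp : PElts D p D') : HasStable F p D' := fun V L h1 h2 h3 => by
  have := finite_of_le_S (le_of_isSubsystemOf hDF)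
  have := finite_of_le_S (inv_le h1)
  have h4 := opPrime_le_of_pElts (hS.to_le (le_of_isSubsystemOf hDF)) hD
    (isInvariantIn_of_sub hS h1 hD hDF (h V L h1 h2 h3)) hD' hD'D hp
  rwa [← eq_opPrime (hS.to_le (inv_le h1)) h3.1 h3] at h4

/-- The residual limit of a normal subsystem is normal, stable, and contains the stable invariant
subsystems. -/
theorem limit_spec (hS : IsPGroup p S) {q : ℕ} {A : FusionSystem U} {D : FusionSystem R}
    (h : A.IsResidualLimitOf D q) : q = p → D.IsNormalIn F p → A.IsNormalIn F p ∧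
      A.hyperfocalSubgroup p = U ∧ A.IsPPrimeResidual p A ∧ (HasStable F p D → HasStable F p A) := by
  induction h with
  | stable D q h1 h2 => rintro rfl hD; exact ⟨hD, h1, h2, id⟩
  | step D q D₁ D₂ h1 h2 _ ih =>
    rintro rfl hD
    have hn := isNormalIn_of_pIndex hS hD h1.1 h1.2
      (stronglyClosed_hyp_of_inv hS (normalIn_inv hD) (normalIn_sat hD))
    have := finite_of_le_S (normalIn_le hn)
    obtain rfl := eq_opPrime (hS.to_le (normalIn_le hn)) h1.1 h2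
    obtain ⟨k1, k2, k3, k4⟩ := ih rfl (opPrime_isNormalIn hS hn.1)
    exact ⟨k1, k2, k3, fun h => k4 ((h.pIndex hS (normalIn_sub hD) h1.2).pElts hS h1.1
      (normalIn_sub hn) h2.1 opPrime_sub pElts_opPrime)⟩

theorem exists_aut_eq_aux (hS : IsPGroup p S) (hE : E.IsWeaklyNormalIn F p)
    [hn : ((E.autGroup T).subgroupOf (F.autGroup T)).Normal]
    (hsolv : IsPSolvable p (↥(F.autGroup T) ⧸ (E.autGroup T).subgroupOf (F.autGroup T))) (n : ℕ) :
    ∀ (R : Subgroup Ω) (D : FusionSystem R), Nat.card (D.autGroup T) = n → D.IsNormalIn F p →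
      E.IsSubsystemOf D → centralizerIn S T ≤ R → HasStable F p D →
      ∃ D₀ : FusionSystem (T ⊔ centralizerIn S T), D₀.IsNormalIn F p ∧ E.IsSubsystemOf D₀ ∧
        D₀.autGroup T = E.autGroup T ∧ HasStable F p D₀ := by
  have hI := hE.2.2
  have hT := inv_stronglyClosed hI
  have := finite_of_le_S hT.1
  have := finite_mulAut hT.1
  induction n using Nat.strong_induction_on with
  | _ n ih =>
  intro R D hc hD hED hC hL
  have hDI := normalIn_inv hD
  have hDF := inv_sub hDI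
  have hRS := inv_le hDI
  have := finite_of_le_S hRS
  have hR := hS.to_le hRS
  have hTR := le_of_isSubsystemOf hED
  have hDs := normalIn_sat hD
  by_cases hle : D.autGroup T ≤ E.autGroup T
  · obtain rfl : R = T ⊔ centralizerIn S T := le_antisymm (fun s hs => by
      have hsn := le_normalizer_of_stronglyClosed hT (hRS hs)
      obtain ⟨k, hk⟩ := isPGroup_autInducedBy hR ⟨_, conjAut_mem_autInducedBy hs hsn⟩
      obtain ⟨t, ht, e⟩ := mem_inn_iff.1 (SylIn.mem_of_self_normal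
        (sat_sylIn_top (hS.to_le hT.1) hE.1) (fun g _ x hx => conj_mem_inn g hx)
        (hle (conjAut_mem_autGroup D hTR hs hsn)) (k := k) (congrArg Subtype.val hk))
      exact mem_of_inv_mul_mem (Subgroup.mem_sup_left ht) (Subgroup.mem_sup_right
        (mem_centralizerIn_conj.2 ⟨S.mul_mem (S.inv_mem (hT.1 ht)) (hRS hs), fun x hx =>
          conj_eq_of_conj_eq (by rw [← e x hx, ext_conjAut _ hx])⟩))) (sup_le hTR hC)
    exact ⟨D, hD, hED, le_antisymm hle (autGroup_mono hED), hL⟩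
  obtain ⟨K, hK, h1, h2, h3⟩ := exists_normal_of_pSolvable hsolv
    (B := (D.autGroup T).subgroupOf (F.autGroup T))
    ⟨fun κ hκ α => inv_conj_mem_autGroup hDI hTR α.2 hκ⟩ (Subgroup.comap_mono (autGroup_mono hED))
    fun h => hle fun α hα => h (x := ⟨α, autGroup_mono hDF hα⟩) hα
  have hKD : K.map (F.autGroup T).subtype ≤ D.autGroup T := by
    rintro _ ⟨κ, hκ, rfl⟩; exact h2.le hκ
  have hKn : ∀ α ∈ F.autGroup T, ∀ κ ∈ K.map (F.autGroup T).subtype,
      α * κ * α⁻¹ ∈ K.map (F.autGroup T).subtype := by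
    rintro α hα _ ⟨κ, hκ, rfl⟩; exact ⟨_, hK.conj_mem κ hκ ⟨α, hα⟩, rfl⟩
  have hEK : E.autGroup T ≤ K.map (F.autGroup T).subtype := fun α hα =>
    ⟨⟨α, autGroup_mono (inv_sub hI) hα⟩, h1 hα, rfl⟩
  have hlt : ∀ B : Subgroup (MulAut T), B ≤ K.map (F.autGroup T).subtype → Nat.card B < n :=
    fun B hB => hc ▸ (Subgroup.card_le_of_le hB).trans_lt (Set.Finite.card_lt_card (Set.toFinite _)
      (lt_of_le_of_ne hKD fun e => h2.not_ge fun α hα => by
        obtain ⟨κ, hκ, e'⟩ := (SetLike.ext'_iff.2 e).ge hα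
        exact Subtype.ext e' ▸ hκ))
  rcases h3 with h3 | h3
  · obtain ⟨D₀, k1, k2, k3, k4, k5⟩ := exists_pPrime_step hS hE hD.1 hED hKD hKn hEK
      fun α hα ⟨k, hk⟩ => ⟨⟨α, autGroup_mono hDF hα⟩, h3 _ hα ⟨k, Subtype.ext hk⟩, rfl⟩
    refine ih _ (hlt _ fun α hα => ?_) R D₀ rfl (isNormalIn_of_invariant hS k1 hD k2) k3 hC
      (hL.pElts hS hDs hDF (normalIn_sat k1) (normalIn_sub k1) k4)
    have h4 := mor_of_mem_autGroup hTR hα
    obtain ⟨κ, hκ, e⟩ := (k5 T _ le_rfl (h4.of_sub (normalIn_sub k1))).1 h4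
    exact aut_ext e ▸ hκ
  · have hq : ∀ α ∈ D.autGroup T, Nat.Coprime (orderOf α) p → α ∈ K.map (F.autGroup T).subtype :=
      fun α hα c => ⟨⟨α, autGroup_mono hDF hα⟩, h3 _ hα (by rwa [Subgroup.orderOf_mk]), rfl⟩
    have hID := isInvariantIn_of_sub hS hI hDs hDF hED
    have hh := hyp_le_NK hR hDs hID (fun α hα => hKn α (autGroup_mono hDF hα))
      ((inn_le_autGroup E le_rfl).trans hEK) hq
    obtain ⟨D₀, k1, k2⟩ := exists_pIndex hR hDs NK_le hh
    have hmap : ∀ {Y ν}, Mor F Y ν → T ≤ Y → ∀ s ∈ Y, s ∈ NK R T (K.map (F.autGroup T).subtype) →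
        ν s ∈ NK R T (K.map (F.autGroup T).subtype) := by
      rintro Y ν hν hY s hsY ⟨hs, κ, hκ, e⟩
      obtain ⟨a, ha, ea⟩ := (hν.mono hY).exists_aut_of_stronglyClosed hT
      have hsn := mem_normalizer_of_ext e
      refine ⟨mem_of_stronglyClosed (inv_stronglyClosed hDI) hν hsY hs, _, hKn a ha κ hκ,
        fun x hx => ?_⟩
      rw [show κ = conjAut T hsn from aut_ext fun x hx => by rw [e x hx, ext_conjAut _ hx],
        ext_conj_conjAut hν.homOn hY (fun x hx => (ea x hx).symm) hsY hsn hx]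
    have : Finite (NK R T (K.map (F.autGroup T).subtype)) := finite_of_le_S (NK_le (S := R))
    have hsc : F.StronglyClosed (NK R T (K.map (F.autGroup T).subtype)) :=
      inv_stronglyClosed_of_invariant hDI (stronglyClosed_of_hyp_le hR hDs NK_le
        (fun s hs => H96.mem_normalizer_of_conj_mem fun x hx =>
          hmap (mor_conj F hRS (hRS hs)) hTR x hx.1 hx) hh)
        fun α hα x hx => hmap (mor_of_mem_autGroup hRS hα) hTR x hx.1 hx
    have hTN : T ≤ NK R T (K.map (F.autGroup T).subtype) :=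
      le_NK_of_inn hTR ((inn_le_autGroup E le_rfl).trans hEK)
    refine ih _ (hlt _ (SylIn.le_of_coprime (sat_sylIn (hS.to_le hsc.1) k1
      (fullyNormalized_of_stronglyClosed (stronglyClosed_of_sub
        (fun P => (pIndex_sub k2 P).trans (hDF P)) hT hTN))) (autInducedBy_NK.le.trans inf_le_right)
      fun α hα => hq α (autGroup_mono (pIndex_sub k2) hα))) _ D₀ rfl
      (isNormalIn_of_pIndex hS hD k1 k2 hsc) (sub_of_pIndex hR hE.1 hED k2 hTN)
      (fun c hc => centralizerIn_le_NK ⟨hC hc, hc.2⟩) (hL.pIndex hS hDF k2)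

/-- A normal subsystem over `T C_S(T)` with the automizer of `E` on `T`. -/
theorem exists_aut_eq (hS : IsPGroup p S) (hE : E.IsWeaklyNormalIn F p)
    [hn : ((E.autGroup T).subgroupOf (F.autGroup T)).Normal]
    (hsolv : IsPSolvable p (↥(F.autGroup T) ⧸ (E.autGroup T).subgroupOf (F.autGroup T))) :
    ∃ D₀ : FusionSystem (T ⊔ centralizerIn S T), D₀.IsNormalIn F p ∧ E.IsSubsystemOf D₀ ∧
      D₀.autGroup T = E.autGroup T ∧ HasStable F p D₀ :=
  exists_aut_eq_aux hS hE hsolv _ S F rfl (isNormalIn_refl hE.2.1) (inv_sub hE.2.2) centralizerIn_le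
    fun _ _ h _ _ => inv_sub h

theorem limit_eq_of_hasStable (hS : IsPGroup p S) {D : FusionSystem R} (hD : D.IsNormalIn F p)
    (h : HasStable F p D) {A : FusionSystem U} (hA : A.IsResidualLimitOf F p) :
    A.IsSubsystemOf D ∧ ∀ {V : Subgroup Ω} (L : FusionSystem V), L.IsResidualLimitOf D p →
      ∀ P, L.Hom P = A.Hom P := by
  obtain ⟨a1, a2, a3, a4⟩ := limit_spec hS hA rfl (isNormalIn_refl (normalIn_sat' hD))
  refine ⟨h _ A (normalIn_inv a1) a2 a3, fun L hL P => ?_⟩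
  obtain ⟨l1, l2, l3, l4⟩ := limit_spec hS hL rfl hD
  exact Set.Subset.antisymm (a4 (fun _ _ h _ _ => inv_sub h) _ L (normalIn_inv l1) l2 l3 P)
    (l4 h _ A (normalIn_inv a1) a2 a3 P)

/-- If `C_S(E) ≤ T` and `Aut_D(T) ≤ Aut_E(T)`, then `E` has `p`-power index in `D`. -/
theorem pIndex_of_aut_le (hS : IsPGroup p S) (hE : E.IsNormalIn F p) (hC : CS F E p ≤ T)
    {D : FusionSystem (T ⊔ centralizerIn S T)} (hD : D.IsSaturated p) (hDF : D.IsSubsystemOf F)
    (hED : E.IsSubsystemOf D) (hA : D.autGroup T ≤ E.autGroup T) : E.HasPPowerIndexIn D p := by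
  have hI := normalIn_inv hE
  have hT := inv_stronglyClosed hI
  have := finite_of_le_S (le_of_isSubsystemOf hDF)
  have hID := isInvariantIn_of_sub hS hI hD hDF hED
  have hTD := inv_stronglyClosed hID
  refine H95.hasPPowerIndexIn_iff.2 ⟨hED, (hyp_le_foc D p).trans (foc_le_iff.2 fun P f hf x hx => ?_),
    fun P hP α hα _ => ?_⟩
  · obtain ⟨n, ν, hn, hν, e⟩ := fr (hS.to_le (le_of_isSubsystemOf hDF)) hD hID hf
    obtain ⟨a, ha, ea⟩ := (hν.mono le_sup_right).exists_aut_of_stronglyClosed hTD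
    obtain ⟨b, hb, eb, mb⟩ := normalIn_ext hE (mor_of_mem_autGroup le_rfl (hA ha))
    have hbm : ∀ y ∈ T ⊔ centralizerIn S T, y⁻¹ * b y ∈ T := modT_sup
      (hb.le.trans (le_normalizer_of_stronglyClosed hT)) hb.homOn
      (fun t ht => T.mul_mem (T.inv_mem ht) (eb t ht ▸ ext_mem _ ht)) mb
    obtain ⟨k, hk, i1, i2, i3, -⟩ := hb.inv' (hb.img_eq_of_mapsTo fun y hy =>
      mem_of_inv_mul_mem hy (Subgroup.mem_sup_left (hbm y hy)))
    have hg := (hν.of_sub hDF).comp hk fun y hy => hν.mem hy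
    have hfix : ∀ t ∈ T, k (ν t) = t := fun t ht => by
      rw [← ea t ht, ← eb t ht, i1 t (Subgroup.mem_sup_left ht)]
    have hνm : ∀ y ∈ P ⊔ T, y⁻¹ * ν y ∈ T := fun y hy => by
      obtain ⟨t, ht, c, hc, rfl⟩ := H95.mem_sup_of_comm inf_le_right (hν.le hy)
      have hcY : c ∈ P ⊔ T := mem_of_inv_mul_mem
        (Subgroup.inv_mem _ (Subgroup.mem_sup_right ht)) (by simpa using hy)
      have h1 := hC (inv_mul_mem_CS hS hE hg le_sup_right hfix hcY hc)
      have h2 := hbm _ (i2 _ (hν.mem hcY))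
      rw [i3 _ (hν.mem hcY)] at h2
      have h3 : c⁻¹ * ν c ∈ T := by simpa [mul_assoc] using T.mul_mem h1 h2
      have h4 := conj_mem_of_mem_normalizer' (le_normalizer_of_stronglyClosed hT hc.1)
        (T.mul_mem (T.inv_mem ht) (mem_of_stronglyClosed hTD hν (Subgroup.mem_sup_right ht) ht))
      rw [hν.map_mul (Subgroup.mem_sup_right ht) hcY]
      simpa [mul_assoc] using T.mul_mem h4 h3
    rw [e x hx]
    simpa [mul_assoc] using T.mul_mem (hn.modT hTD x hx)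
      (hνm _ (hn.mem_of_le hTD le_sup_right hx (Subgroup.mem_sup_left hx)))
  · obtain ⟨β, hβ, f₀, h0, e⟩ := inv_frattini hID (mor_of_mem_autGroup (hP.trans le_sup_left) hα) hP
    exact (h0.comp (mor_of_mem_autGroup le_rfl (hA hβ)) fun x hx => h0.mem hx).congr
      fun x hx => (e x hx).symm

end Cfsg.Agent.H95
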