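import Cfsg.Agent.H56.SpDefs

/-! Project CY, chapter SP: the centraliser of a non-split torus modulo `K` is cyclic. -/

set_option autoImplicit false

namespace Cfsg.Agent.H56.Sp.PSeven

open Subgroup MulAction Matrix Cfsg.Agent.H11.Cy
open scoped MatrixGroups

section Mat
variable {F : Type} [Field F]

theorem sc (H : Matrix (Fin 2) (Fin 2) F) (h : ∀ m : SL(2, F), H * m.1 = m.1 * H) :
    ∃ c : F, H = c • 1 := by
  have h1 : H * !![1, 1; 0, 1] = !![1, 1; 0, 1] * H := h ⟨!![1, 1; 0, 1], by simp [det_fin_two_of]⟩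
  have h2 : H * !![1, 0; 1, 1] = !![1, 0; 1, 1] * H := h ⟨!![1, 0; 1, 1], by simp [det_fin_two_of]⟩
  have a := congrFun (congrFun h1 0) 0
  have b := congrFun (congrFun h1 0) 1
  have c := congrFun (congrFun h2 0) 0
  simp only [mul_apply, Fin.sum_univ_two, of_apply, cons_val', cons_val_zero, cons_val_one,
    cons_val_fin_one] at a b c
  have a' : H 1 0 = 0 := by linear_combination -a
  have b' : H 1 1 = H 0 0 := by linear_combination -b
  have c' : H 0 1 = 0 := by linear_combination c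
  refine ⟨H 0 0, ?_⟩
  ext i j
  fin_cases i <;> fin_cases j <;> simp [a', b', c']

theorem tr0 (M : Matrix (Fin 2) (Fin 2) F) (h : ¬ ∃ c : F, M = c • 1) (c : F) (h2 : M * M = c • 1) :
    M 1 1 = -M 0 0 ∧ c = -M.det := by
  have a := congrFun (congrFun h2 0) 0
  have b := congrFun (congrFun h2 0) 1
  have d := congrFun (congrFun h2 1) 0
  have e := congrFun (congrFun h2 1) 1
  simp only [mul_apply, Fin.sum_univ_two, Matrix.smul_apply, one_apply_eq, smul_eq_mul, mul_one, ne_eq,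
    zero_ne_one, not_false_eq_true, one_apply_ne, mul_zero, one_ne_zero] at a b d e
  have t : M 1 1 = -M 0 0 := by
    by_contra t
    have t' : M 1 1 + M 0 0 ≠ 0 := fun e => t (by linear_combination e)
    have b' : M 0 1 = 0 := (mul_eq_zero.1 (by linear_combination b)).resolve_right t'
    have d' : M 1 0 = 0 := (mul_eq_zero.1 (by linear_combination d)).resolve_right t'
    have e' : M 1 1 - M 0 0 = 0 := (mul_eq_zero.1 (by linear_combination e - a)).resolve_right t'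
    refine h ⟨M 0 0, ?_⟩
    ext i j
    fin_cases i <;> fin_cases j <;> simp [b', d', sub_eq_zero.1 e']
  exact ⟨t, by rw [det_fin_two, t]; linear_combination -a⟩

theorem com (M H : Matrix (Fin 2) (Fin 2) F) (t : M 1 1 = -M 0 0) (h0 : M 0 1 ≠ 0)
    (h : H * M = M * H) : ∃ a b : F, H = a • 1 + b • M := by
  have a := congrFun (congrFun h 0) 0
  have b := congrFun (congrFun h 0) 1
  simp only [mul_apply, Fin.sum_univ_two, t] at a b
  refine ⟨H 0 0 - H 0 1 / M 0 1 * M 0 0, H 0 1 / M 0 1, ?_⟩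
  ext i j
  fin_cases i <;> fin_cases j <;> simp [t, h0]
  · field_simp
    linear_combination -a
  · field_simp
    linear_combination -b

theorem det_ab (M : Matrix (Fin 2) (Fin 2) F) (t : M 1 1 = -M 0 0) (a b : F) :
    (a • (1 : Matrix (Fin 2) (Fin 2) F) + b • M).det = a ^ 2 + b ^ 2 * M.det := by
  simp [det_fin_two, t]
  ring

end Mat

variable {G : Type} [Group G] {F : Type} [Field F] {L : Subgroup G} (e : L ≃* SL(2, F))

def Rep (g : G) (M : Matrix (Fin 2) (Fin 2) F) : Prop :=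
  M.det ≠ 0 ∧ ∀ f f' : L, (f' : G) = g * f * g⁻¹ → M * (e f).1 = (e f').1 * M

variable {e}

theorem Rep.mul {g h : G} {M H : Matrix (Fin 2) (Fin 2) F} (r : Rep e g M) (s : Rep e h H)
    (hh : h ∈ normalizer (L : Set G)) : Rep e (g * h) (M * H) := by
  refine ⟨by rw [det_mul]; exact mul_ne_zero r.1 s.1, fun f f' hf => ?_⟩
  rw [mul_assoc, s.2 f ⟨_, (mem_normalizer_iff.1 hh _).1 f.2⟩ rfl, ← mul_assoc,
    r.2 _ f' (by rw [hf]; simp [mul_assoc]), mul_assoc]

theorem rep_self (f : L) : Rep e f (e f).1 := by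
  refine ⟨by rw [(e f).2]; exact one_ne_zero, fun a b h => ?_⟩
  have : f * a = b * f := Subtype.ext (by simp [h])
  have h2 := congrArg (fun z => (e z).1) this
  simp only [map_mul] at h2
  exact h2

theorem Rep.comm {g : G} {M : Matrix (Fin 2) (Fin 2) F} (r : Rep e g M)
    (hg : g ∈ normalizer (L : Set G)) (t : L) : g * t = t * g ↔ M * (e t).1 = (e t).1 * M := by
  refine ⟨fun h => r.2 t t (by rw [h, mul_inv_cancel_right]), fun h => ?_⟩
  have h1 := r.2 t ⟨_, (mem_normalizer_iff.1 hg _).1 t.2⟩ rfl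
  rw [h] at h1
  have h2 := e.injective (Subtype.ext
    ((isUnit_iff_isUnit_det M).2 (isUnit_iff_ne_zero.2 r.1) |>.mul_right_cancel h1))
  exact (eq_mul_inv_iff_mul_eq.1 (congrArg Subtype.val h2)).symm

theorem Rep.cen {g : G} {M : Matrix (Fin 2) (Fin 2) F} (r : Rep e g M)
    (hg : g ∈ normalizer (L : Set G)) : g ∈ centralizer (L : Set G) ↔ ∃ c : F, M = c • 1 := by
  constructor
  · intro h
    refine sc M fun m => ?_
    obtain ⟨t, rfl⟩ := e.surjective m
    exact (r.comm hg t).1 (mem_centralizer_iff.1 h t t.2).symm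
  · rintro ⟨c, rfl⟩
    exact mem_centralizer_iff.2 fun t ht => ((r.comm hg ⟨t, ht⟩).2 (by simp)).symm

theorem Rep.fk {g : G} {M : Matrix (Fin 2) (Fin 2) F} (r : Rep e g M)
    (hg : g ∈ normalizer (L : Set G)) :
    (∃ f ∈ L, ∃ k ∈ centralizer (L : Set G), g = f * k) ↔ IsSquare M.det := by
  constructor
  · rintro ⟨f, hf, k, hk, rfl⟩
    have h1 := (rep_self (e := e) ⟨f, hf⟩⁻¹).mul r hg
    have h2 : ((⟨f, hf⟩⁻¹ : L) : G) * (f * k) = k := by simp
    rw [h2] at h1
    obtain ⟨c, hc⟩ := (h1.cen (centralizer_le_normalizer _ hk)).1 hk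
    have := congrArg det hc
    rw [det_mul, (e _).2, one_mul] at this
    exact ⟨c, by simpa [pow_two] using this⟩
  · rintro ⟨s, hs⟩
    have s0 : s ≠ 0 := fun h => r.1 (by rw [hs, h, mul_zero])
    obtain ⟨f, hf⟩ := e.surjective ⟨s⁻¹ • M, by simp [hs, pow_two]; field_simp⟩
    have h1 := (rep_self (e := e) f⁻¹).mul r hg
    refine ⟨f, f.2, _, (h1.cen (mul_mem (le_normalizer f⁻¹.2) hg)).2 ⟨s, ?_⟩, by simp⟩
    have h2 : M = s • (e f).1 := by rw [hf]; simp [smul_smul, s0]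
    have h3 : (e f⁻¹).1 * (e f).1 = 1 := by
      have := congrArg (fun z => (e z).1) (inv_mul_cancel f)
      simp only [map_mul, map_one] at this
      exact this
    rw [h2, Matrix.mul_smul, h3]

theorem core [Fintype F] {p : ℕ} (hp : p.Prime) (p2 : p ≠ 2) (hF : Fintype.card F = p)
    (co : ∀ g ∈ normalizer (L : Set G), ∃ M, Rep e g M) {g : G} (hg : g ∈ normalizer (L : Set G))
    (h1 : g * g ∈ centralizer (L : Set G)) (h2 : g ∉ centralizer (L : Set G))
    (h3 : (∃ f ∈ L, ∃ k ∈ centralizer (L : Set G), g = f * k) ↔ p % 4 = 3) (C : Subgroup G)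
    (hC : C = normalizer (L : Set G) ⊓ centralizer ((L ⊓ centralizer ({g} : Set G) : Subgroup G) : Set G)) :
    (∀ f ∈ L, f ∈ C → f ∈ L ⊓ centralizer ({g} : Set G)) ∧
      ∃ χ : C →* Multiplicative (ZMod (p + 1)), ∀ c, χ c = 1 ↔ (c : G) ∈ centralizer (L : Set G) := by
  classical
  have : Fact p.Prime := ⟨hp⟩
  have : CharP F p := charP_of_card_eq_prime hF
  have two : (2 : F) ≠ 0 := fun h => p2 ((Nat.prime_dvd_prime_iff_eq hp Nat.prime_two).1
    ((CharP.cast_eq_zero_iff F p 2).1 (by exact_mod_cast h)))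
  obtain ⟨M, r⟩ := co g hg
  have ns : ¬ ∃ c : F, M = c • 1 := fun h => h2 ((r.cen hg).2 h)
  obtain ⟨d, hd⟩ := ((r.mul r hg).cen (mul_mem hg hg)).1 h1
  obtain ⟨t, hd'⟩ := tr0 M ns d hd
  have nsq : ¬ IsSquare d := by
    intro h
    rw [r.fk hg, ← hF] at h3
    by_cases h4 : Fintype.card F % 4 = 3
    · obtain ⟨s, hs⟩ := h3.2 h4
      obtain ⟨u, hu⟩ := h
      have s0 : s ≠ 0 := fun h => r.1 (by rw [hs, h, mul_zero])
      refine FiniteField.isSquare_neg_one_iff.1 ⟨u / s, ?_⟩ h4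
      field_simp
      linear_combination hu - hd' + hs
    · refine h4 (h3.1 ?_)
      simpa [hd'] using (FiniteField.isSquare_neg_one_iff.2 h4).mul h
  have m0 : M 0 1 ≠ 0 := fun h => nsq ⟨M 0 0, by rw [hd', det_fin_two, h, t]; ring⟩
  have d1 : 1 - d ≠ 0 := fun h => nsq ⟨1, by linear_combination -h⟩
  obtain ⟨τ, hτ⟩ := e.surjective ⟨((1 + d) / (1 - d)) • 1 + (2 / (1 - d)) • M, by
    rw [det_ab M t, ← neg_neg M.det, ← hd']
    field_simp
    ring⟩
  have τv : (e τ).1 = ((1 + d) / (1 - d)) • 1 + (2 / (1 - d)) • M := by rw [hτ]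
  have τT : (τ : G) ∈ L ⊓ centralizer ({g} : Set G) := ⟨τ.2, mem_centralizer_singleton_iff.2
    ((r.comm hg τ).2 (by rw [τv]; simp [mul_add, add_mul])).symm⟩
  have cm : ∀ c ∈ C, ∀ H, Rep e c H → H * M = M * H := by
    intro c hc H s
    rw [hC] at hc
    have := (s.comm hc.1 τ).1 (mem_centralizer_iff.1 hc.2 _ τT).symm
    rw [τv] at this
    simp only [mul_add, add_mul, Matrix.mul_smul, Matrix.smul_mul, mul_one, one_mul,
      add_right_inj] at this
    exact smul_right_injective _ (div_ne_zero two d1) this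
  refine ⟨fun f hf hc => ⟨hf, mem_centralizer_singleton_iff.2
    ((r.comm hg ⟨f, hf⟩).2 (cm f hc _ (rep_self ⟨f, hf⟩)).symm).symm⟩, ?_⟩
  have : Fact (∀ s : F, s ^ 2 ≠ d + 0 * s) := ⟨fun s h => nsq ⟨s, by linear_combination -h⟩⟩
  let E := QuadraticAlgebra F d 0
  let ι : E → Matrix (Fin 2) (Fin 2) F := fun z => z.re • 1 + z.im • M
  have ιm : ∀ z w, ι (z * w) = ι z * ι w := by
    intro z w
    simp only [ι, E, QuadraticAlgebra.re_mul, QuadraticAlgebra.im_mul, mul_add, add_mul,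
      Matrix.mul_smul, Matrix.smul_mul, mul_one, one_mul, hd]
    module
  have ι1 : ι 1 = 1 := by
    change (1 : F) • (1 : Matrix (Fin 2) (Fin 2) F) + (0 : F) • M = 1
    simp
  let R : Subgroup Eˣ := (Units.map (algebraMap F E).toMonoidHom).range
  have hR : ∀ z : Eˣ, z ∈ R ↔ ∃ c : F, ι z = c • 1 := by
    intro z
    constructor
    · rintro ⟨u, rfl⟩
      exact ⟨u, by simp [ι, E]⟩
    · rintro ⟨c, hc⟩
      have := congrFun (congrFun hc 0) 1
      have him : z.1.im = 0 := by simpa [ι, m0] using this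
      have hz : algebraMap F E z.1.re = z.1 := by ext <;> simp [E, him]
      exact ⟨Units.mk0 z.1.re fun h => z.ne_zero (by rw [← hz, h, map_zero]), Units.ext hz⟩
  have hN : ∀ c : C, (c : G) ∈ normalizer (L : Set G) := fun c => (hC.le c.2).1
  have ex : ∀ c : C, ∃ z : Eˣ, Rep e c (ι z) := by
    intro c
    obtain ⟨H, s⟩ := co c (hN c)
    obtain ⟨a, b, rfl⟩ := com M H t m0 (cm c c.2 H s)
    refine ⟨Units.mk0 ⟨a, b⟩ fun h => s.1 ?_, s⟩
    have ha : a = 0 := congrArg QuadraticAlgebra.re h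
    have hb : b = 0 := congrArg QuadraticAlgebra.im h
    simp [ha, hb]
  choose X hX using ex
  have uq : ∀ c ∈ normalizer (L : Set G), ∀ z w : Eˣ, Rep e c (ι z) → Rep e c (ι w) → z⁻¹ * w ∈ R := by
    intro c hc z w rz rw'
    refine (hR _).2 (sc _ fun m => ?_)
    obtain ⟨f, rfl⟩ := e.surjective m
    have e1 := rz.2 f ⟨_, (mem_normalizer_iff.1 hc _).1 f.2⟩ rfl
    have e2 := rw'.2 f ⟨_, (mem_normalizer_iff.1 hc _).1 f.2⟩ rfl
    have i1 : ι (z⁻¹ : Eˣ) * ι z = 1 := by rw [← ιm, Units.inv_mul, ι1]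
    have i2 : ι z * ι (z⁻¹ : Eˣ) = 1 := by rw [← ιm, Units.mul_inv, ι1]
    rw [Units.val_mul, ιm, mul_assoc, e2]
    generalize (e ⟨_, (mem_normalizer_iff.1 hc _).1 f.2⟩).1 = B at e1
    calc ι (z⁻¹ : Eˣ) * (B * ι w) = ι (z⁻¹ : Eˣ) * (B * (ι z * ι (z⁻¹ : Eˣ)) * ι w) := by
          rw [i2, mul_one]
      _ = ι (z⁻¹ : Eˣ) * ι z * (e f).1 * (ι (z⁻¹ : Eˣ) * ι w) := by
          rw [← mul_assoc B, ← e1]; simp only [mul_assoc]
      _ = _ := by rw [i1, one_mul]
  let χ : C →* Eˣ ⧸ R := MonoidHom.mk' (fun c => QuotientGroup.mk (X c)) fun a b => by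
    rw [← QuotientGroup.mk_mul, QuotientGroup.eq]
    refine uq _ (hN (a * b)) _ _ (hX _) ?_
    rw [Units.val_mul, ιm]
    exact (hX a).mul (hX b) (hN b)
  have : Finite E := Finite.of_equiv _ (QuadraticAlgebra.equivProd d 0).symm
  have cE : Nat.card E = p * p := by
    rw [Nat.card_congr (QuadraticAlgebra.equivProd d 0), Nat.card_prod, Nat.card_eq_fintype_card, hF]
  have cR : Nat.card R = p - 1 := by
    rw [← Nat.card_congr (MonoidHom.ofInjective (Units.map_injective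
      (f := (algebraMap F E).toMonoidHom) (algebraMap F E).injective)).toEquiv, Nat.card_units,
      Nat.card_eq_fintype_card, hF]
  have cQ : Nat.card (Eˣ ⧸ R) = p + 1 := by
    have h4 := card_eq_card_quotient_mul_card_subgroup R
    rw [Nat.card_units, cE, cR, show p * p - 1 = (p + 1) * (p - 1) from
      Nat.mul_self_sub_mul_self_eq p 1] at h4
    exact (Nat.eq_of_mul_eq_mul_right (by have := hp.two_le; omega) h4).symm
  have cy : IsCyclic (Eˣ ⧸ R) := isCyclic_of_surjective _ (QuotientGroup.mk'_surjective R)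
  obtain ⟨j⟩ : Nonempty (Multiplicative (ZMod (p + 1)) ≃* Eˣ ⧸ R) := cQ ▸ ⟨zmodCyclicMulEquiv cy⟩
  refine ⟨j.symm.toMonoidHom.comp χ, fun c => ?_⟩
  rw [(hX c).cen (hN c), ← hR, ← QuotientGroup.eq_one_iff]
  exact map_eq_one_iff j.symm j.symm.injective

theorem p7 : P7Stmt := by
  intro G _ _ Ω _ _ p A h p2 _ x y _ _ co q2 g hg fp
  obtain ⟨F, _, _, e, hF, co⟩ := co
  exact core (e := e) h.pp p2 hF co hg.1 hg.2.1 hg.2.2 ((q2 g hg).1 fp) _ rfl

end Cfsg.Agent.H56.Sp.PSeven
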