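import Mathlib
import Cfsg.Agent.H42.VpDefs
import Cfsg.Agent.H14.ExtraChar

set_option autoImplicit false

namespace Cfsg.Agent.H95.VpZ0

open Subgroup Cfsg Cfsg.Agent.H42.Vp
open scoped commutatorElement

universe u

theorem z0 : Z0Stmt.{u} := by
  intro G _ _ x g z hz hz1 hg
  have : ∃ χ, IsIrrCharacter G χ ∧ z ∉ H11.charKer χ := by
    by_contra h
    push Not at h
    exact hz1 (H11.eq_one_of_forall_mem_charKer fun χ hχ => h χ hχ)
  obtain ⟨χ, hχ, h1⟩ := this
  have hc : ⁅g, x⁆ = z := by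
    rw [commutatorElement_def, hg, mem_center_iff.1 hz x]
    group
  refine ⟨χ, hχ, H14.apply_eq_zero_of_commutator_center hχ (y := g) ?_ ?_⟩
  · rw [hc]
    exact H11.center_le_charCenter hχ hz
  · rw [hc]
    exact h1

end Cfsg.Agent.H95.VpZ0
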